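import Mathlib
import Cfsg.Agent.Lib.Helper18.LSDefs

/-!
# LS-NANISO2 (helper50, for helper18's S2333)

For an anisotropic binary form `f2 α β` in characteristic 2 and `p ≠ 0`, the system
`f2 α β p' = β'`, `p.1 * p'.2 + p'.1 * p.2 = γ` has at most two solutions.
-/

set_option autoImplicit false

namespace Cfsg.Agent.Lib.Helper18.LS

open Matrix

universe u

variable {F : Type u} [Field F] {n : ℕ}

private theorem naniso2_line [CharP F 2] (p r : F × F) (hp : p ≠ 0)
    (hr : p.1 * r.2 + r.1 * p.2 = 0) : ∃ t : F, r = (t * p.1, t * p.2) := by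
  have h2 : ∀ x : F, x + x = 0 := fun x => CharTwo.add_self_eq_zero x
  by_cases h1 : p.1 = 0
  · have hp2 : p.2 ≠ 0 := by
      intro h
      exact hp (Prod.ext h1 h)
    rw [h1, zero_mul, zero_add] at hr
    have hr1 : r.1 = 0 := by
      rcases mul_eq_zero.mp hr with h | h
      · exact h
      · exact absurd h hp2
    refine ⟨r.2 / p.2, Prod.ext ?_ ?_⟩
    · simp [h1, hr1]
    · simp only
      field_simp
  · refine ⟨r.1 / p.1, Prod.ext ?_ ?_⟩
    · simp only
      field_simp
    · simp only
      have : p.1 * r.2 = r.1 * p.2 := by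
        have := h2 (r.1 * p.2)
        linear_combination hr - this
      field_simp
      linear_combination this

theorem naniso_two [Fintype F] [CharP F 2] (α β : F)
    (h : ∀ p : F × F, f2 α β p = 0 → p = 0) (β' γ : F) (p : F × F) (hp : p ≠ 0) :
    Nat.card {p' : F × F | f2 α β p' = β' ∧ p.1 * p'.2 + p'.1 * p.2 = γ} ≤ 2 := by
  classical
  have h2 : ∀ x : F, x + x = 0 := fun x => CharTwo.add_self_eq_zero x
  have hfp : f2 α β p ≠ 0 := fun h0 => hp (h p h0)
  rw [Nat.card_coe_set_eq]
  by_cases hne : ({p' : F × F | f2 α β p' = β' ∧ p.1 * p'.2 + p'.1 * p.2 = γ}).Nonempty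
  · obtain ⟨p₀, hp₀1, hp₀2⟩ := hne
    have hsub : {p' : F × F | f2 α β p' = β' ∧ p.1 * p'.2 + p'.1 * p.2 = γ} ⊆
        ({p₀, (p₀.1 + (γ / f2 α β p) * p.1, p₀.2 + (γ / f2 α β p) * p.2)} : Set (F × F)) := by
      rintro p' ⟨hp'1, hp'2⟩
      have hlin : p.1 * (p'.2 + p₀.2) + (p'.1 + p₀.1) * p.2 = 0 := by
        have := h2 γ
        linear_combination hp'2 + hp₀2 + this
      obtain ⟨t, ht⟩ := naniso2_line p (p'.1 + p₀.1, p'.2 + p₀.2) hp hlin
      have e1 : p'.1 = p₀.1 + t * p.1 := by
        have := congrArg Prod.fst ht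
        simp only at this
        have h3 := h2 p₀.1
        linear_combination this - h3
      have e2 : p'.2 = p₀.2 + t * p.2 := by
        have := congrArg Prod.snd ht
        simp only at this
        have h3 := h2 p₀.2
        linear_combination this - h3
      have key : t * (t * f2 α β p + γ) = 0 := by
        unfold f2 at hp'1 hp₀1 ⊢
        rw [e1, e2] at hp'1
        have h4 := h2 (t * p₀.1 * p.1 * α)
        have h5 := h2 (t * p₀.2 * p.2 * β)
        linear_combination hp'1 - hp₀1 - h4 - h5 - t * hp₀2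
      rcases mul_eq_zero.mp key with h0 | h0
      · left
        refine Prod.ext ?_ ?_
        · rw [e1, h0]; ring
        · rw [e2, h0]; ring
      · right
        have ht' : t = γ / f2 α β p := by
          rw [eq_div_iff hfp]
          have := h2 γ
          linear_combination h0 - this
        refine Prod.ext ?_ ?_
        · simp only
          rw [e1, ht']
        · simp only
          rw [e2, ht']
    calc ({p' : F × F | f2 α β p' = β' ∧ p.1 * p'.2 + p'.1 * p.2 = γ}).ncard
        ≤ ({p₀, (p₀.1 + (γ / f2 α β p) * p.1, p₀.2 + (γ / f2 α β p) * p.2)} :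
            Set (F × F)).ncard := Set.ncard_le_ncard hsub (Set.toFinite _)
      _ ≤ ({(p₀.1 + (γ / f2 α β p) * p.1, p₀.2 + (γ / f2 α β p) * p.2)} :
            Set (F × F)).ncard + 1 := Set.ncard_insert_le _ _
      _ = 2 := by rw [Set.ncard_singleton]
  · rw [Set.not_nonempty_iff_eq_empty] at hne
    rw [hne, Set.ncard_empty]
    omega

end Cfsg.Agent.Lib.Helper18.LS
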