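import Mathlib

/-!
# Transvections generate `SL(V)` (helper50; piece G-SL for helper18's S5075)

Every linear equivalence of determinant `1` of a finite-dimensional vector space over a field is
a product of transvections.  We use Mathlib's non-exceptional case of Dieudonné's theorem and
remove the exceptional case by multiplying with one transvection.
-/

set_option autoImplicit false

namespace Cfsg.Agent.Lib.Helper50.SlGen

open LinearEquiv Module Submodule
open scoped Pointwise

variable {K : Type*} [Field K] {V : Type*} [AddCommGroup V] [Module K V]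

theorem pow_subset_closure (n : ℕ) :
    (transvections K V) ^ n ⊆ (Subgroup.closure (transvections K V) : Set (V ≃ₗ[K] V)) := by
  induction n with
  | zero =>
    intro x hx
    rw [pow_zero, Set.mem_one] at hx
    rw [hx]
    exact (Subgroup.closure _).one_mem
  | succ n ih =>
    intro x hx
    rw [pow_succ] at hx
    obtain ⟨a, ha, b, hb, rfl⟩ := Set.mem_mul.mp hx
    exact (Subgroup.closure _).mul_mem (ih ha) (Subgroup.subset_closure hb)

theorem det_eq_one_of_mem_closure {x : V ≃ₗ[K] V}
    (hx : x ∈ Subgroup.closure (transvections K V)) : LinearEquiv.det x = 1 := by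
  have h : Subgroup.closure (transvections K V) ≤ (LinearEquiv.det (R := K) (M := V)).ker := by
    rw [Subgroup.closure_le]
    rintro y ⟨f, v, hfv, rfl⟩
    exact LinearEquiv.transvection.det_eq_one hfv
  exact h hx

variable [FiniteDimensional K V]

theorem mem_of_not_exceptional (e : V ≃ₗ[K] V) (he : LinearEquiv.det e = 1)
    (hex : ¬ IsExceptional e) : e ∈ Subgroup.closure (transvections K V) := by
  have h := mem_transvections_pow_mul_dilatransvections_of_not_isExceptional hex
  obtain ⟨s, hs, d, hd, rfl⟩ := Set.mem_mul.mp h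
  have hs' : s ∈ Subgroup.closure (transvections K V) := pow_subset_closure _ hs
  have hdet_s := det_eq_one_of_mem_closure hs'
  have hdet_d : LinearEquiv.det d = 1 := by
    rw [map_mul, hdet_s, one_mul] at he
    exact he
  obtain ⟨f, v, hfv⟩ := hd
  have h1 : LinearMap.det (d : V →ₗ[K] V) = 1 := by
    rw [← LinearEquiv.coe_det, hdet_d, Units.val_one]
  rw [hfv, LinearMap.transvection.det] at h1
  have hfv0 : f v = 0 := by
    have h2 : (1 : K) + f v = 1 + 0 := by rw [h1, add_zero]
    exact add_left_cancel h2
  have h3 : d = LinearEquiv.transvection hfv0 := by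
    apply LinearEquiv.toLinearMap_injective
    rw [hfv]
    rfl
  exact (Subgroup.closure _).mul_mem hs' (Subgroup.subset_closure ⟨f, v, hfv0, h3⟩)

/-- **G-SL**: every linear equivalence of determinant `1` is a product of transvections. -/
theorem sl_gen {K : Type*} [Field K] {V : Type*} [AddCommGroup V] [Module K V]
    [FiniteDimensional K V] (e : V ≃ₗ[K] V) (he : LinearMap.det (e : V →ₗ[K] V) = 1) :
    e ∈ Subgroup.closure (LinearEquiv.transvections K V) := by
  have he' : LinearEquiv.det e = 1 := by
    apply Units.ext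
    rw [LinearEquiv.coe_det, he, Units.val_one]
  by_cases hex : IsExceptional e
  swap
  · exact mem_of_not_exceptional e he' hex
  obtain ⟨h1, h2, a, ha⟩ := hex
  have ha' := (fixedReduce_eq_smul_iff e a).mp ha
  have ha1 : a ≠ 1 := by
    rintro rfl
    apply h2
    ext x
    rw [ha x, one_smul]
    rfl
  have hnt : Nontrivial (V ⧸ (e : V →ₗ[K] V).fixedSubmodule) :=
    Module.nontrivial_of_finrank_pos (R := K) (by omega)
  have ha0 : a ≠ 0 := by
    rintro rfl
    obtain ⟨x, y, hxy⟩ := hnt
    apply hxy
    apply e.fixedReduce.injective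
    rw [ha x, ha y, zero_smul, zero_smul]
  have hFtop : (e : V →ₗ[K] V).fixedSubmodule ≠ ⊤ := by
    intro htop
    rw [htop] at h1
    have h0 : finrank K (V ⧸ (⊤ : Submodule K V)) = 0 := by
      rw [Submodule.finrank_quotient, finrank_top]
      omega
    omega
  obtain ⟨v, hv⟩ : ∃ v : V, v ∉ (e : V →ₗ[K] V).fixedSubmodule := by
    by_contra hno
    push Not at hno
    exact hFtop (eq_top_iff.mpr fun x _ => hno x)
  have hlt := LinearEquiv.sup_span_singleton_lt_top (W := (e : V →ₗ[K] V).fixedSubmodule) v h1
  obtain ⟨f, hf0, hf⟩ := Submodule.exists_dual_map_eq_bot_of_lt_top hlt inferInstance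
  rw [← LinearMap.le_ker_iff_map] at hf
  have hfF : ∀ w ∈ (e : V →ₗ[K] V).fixedSubmodule, f w = 0 := fun w hw =>
    LinearMap.mem_ker.mp (hf (mem_sup_left hw))
  have hfv : f v = 0 := LinearMap.mem_ker.mp (hf (mem_sup_right (mem_span_singleton_self v)))
  have hfe : ∀ x, f (e x) = a * f x := by
    intro x
    have h3 := hfF _ (ha' x)
    rw [map_sub, _root_.map_smul, smul_eq_mul, sub_eq_zero] at h3
    exact h3
  obtain ⟨t, ht⟩ : ∃ t : V ≃ₗ[K] V, t = LinearEquiv.transvection hfv := ⟨_, rfl⟩
  have htx : ∀ x, (t * e) x = e x + (a * f x) • v := by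
    intro x
    rw [LinearEquiv.mul_apply, ht, LinearEquiv.transvection.apply, hfe]
  have hfix : ∀ w, (t * e) w = w → e w = w := by
    intro w hw
    rw [htx] at hw
    have h4 := hfF _ (ha' w)
    have h5 : e w = w - (a * f w) • v := eq_sub_of_add_eq hw
    rw [h5] at h4
    simp only [map_sub, _root_.map_smul, smul_eq_mul, hfv, mul_zero, sub_zero] at h4
    have h6 : (1 - a) * f w = 0 := by linear_combination h4
    have h7 : f w = 0 := by
      rcases mul_eq_zero.mp h6 with h8 | h8
      · exact absurd (by linear_combination -h8 : a = 1) ha1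
      · exact h8
    rw [h5, h7, mul_zero, zero_smul, sub_zero]
  have hnex : ¬ IsExceptional (t * e) := by
    rintro ⟨-, -, b, hb⟩
    have hb' := (fixedReduce_eq_smul_iff (t * e) b).mp hb
    obtain ⟨x₀, hx₀⟩ : ∃ x₀, f x₀ ≠ 0 := by
      by_contra hno
      push Not at hno
      exact hf0 (LinearMap.ext fun x => by rw [hno x, LinearMap.zero_apply])
    have h9 := hb' x₀
    rw [LinearMap.mem_fixedSubmodule_iff, LinearEquiv.coe_coe] at h9
    have h10 := hfix _ h9
    have h11 : (t * e) x₀ - b • x₀ ∈ (e : V →ₗ[K] V).fixedSubmodule := by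
      rw [LinearMap.mem_fixedSubmodule_iff, LinearEquiv.coe_coe]
      exact h10
    rw [htx] at h11
    have h12 := (e : V →ₗ[K] V).fixedSubmodule.sub_mem h11 (ha' x₀)
    have h13 : e x₀ + (a * f x₀) • v - b • x₀ - (e x₀ - a • x₀)
        = (a - b) • x₀ + (a * f x₀) • v := by
      rw [sub_smul]
      abel
    rw [h13] at h12
    have h14 := hfF _ h12
    simp only [map_add, _root_.map_smul, smul_eq_mul, hfv, mul_zero, add_zero] at h14
    have hab : a = b := by
      rcases mul_eq_zero.mp h14 with h15 | h15
      · linear_combination h15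
      · exact absurd h15 hx₀
    rw [hab, sub_self, zero_smul, zero_add] at h12
    apply hv
    have h16 := (e : V →ₗ[K] V).fixedSubmodule.smul_mem (b * f x₀)⁻¹ h12
    rw [smul_smul, inv_mul_cancel₀ (mul_ne_zero (hab ▸ ha0) hx₀), one_smul] at h16
    exact h16
  have hdet : LinearEquiv.det (t * e) = 1 := by
    rw [map_mul, he', mul_one, ht]
    exact LinearEquiv.transvection.det_eq_one hfv
  have hmem := mem_of_not_exceptional (t * e) hdet hnex
  have htm : t ∈ Subgroup.closure (transvections K V) :=
    Subgroup.subset_closure ⟨f, v, hfv, ht⟩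
  have he2 : e = t⁻¹ * (t * e) := by group
  rw [he2]
  exact (Subgroup.closure _).mul_mem ((Subgroup.closure _).inv_mem htm) hmem

end Cfsg.Agent.Lib.Helper50.SlGen
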