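import Mathlib
import Cfsg.Prelude.Def_GeometricClasses
import Cfsg.Agent.Lib.Helper97.Transv
import Cfsg.Agent.Lib.Helper97.TransvM
import Cfsg.Agent.Lib.Helper97.SympMax
import Cfsg.Agent.Lib.Helper97.SpOver
import Cfsg.Agent.Lib.Helper97.SpOver2
import Cfsg.Agent.Lib.Helper97.SpPair
import Cfsg.Agent.Lib.Helper50.SubfW
import Cfsg.Agent.Lib.Helper50.SubfMax

/-!
# Heisenberg elements of a symplectic group

Helper library (helper50).  For a symplectic form `f` and vectors `w`, `y` with `f w y = 0`, the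
map `hs f w y c : x ↦ x + f(x, y) w + f(x, w) y + c f(x, w) w` is an isometry; for fixed `w` these
maps form the unipotent radical of the stabiliser of the point `w` (a Heisenberg group), with
`hs f w y c ∘ hs f w y' c' = hs f w (y + y') (c + c' + f y' y)`.  The lemmas `act_hs_*` transport
this calculus to membership in a subgroup `M` of `GL` (in the sense of helper97's `Act`).
`SubfData f F₀ M` packages an overgroup `M` of the rational isometries consisting of isometries.
-/

set_option autoImplicit false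

namespace Cfsg.Agent.Lib.Helper50

open Matrix Cfsg.Agent.Lib.Helper97

section SpHeis

variable {ι : Type} [Fintype ι] [DecidableEq ι] {F : Type*} [Field F]
variable {f : (ι → F) → (ι → F) → F}

/-- The Heisenberg element `x ↦ x + f(x, y) w + f(x, w) y + c f(x, w) w` at the point `w`. -/
def hs (f : (ι → F) → (ι → F) → F) (w y : ι → F) (c : F) : (ι → F) → (ι → F) :=
  fun x => x + f x y • w + f x w • y + (c * f x w) • w

omit [Fintype ι] [DecidableEq ι] in
theorem hs_apply (w y : ι → F) (c : F) (x : ι → F) :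
    hs f w y c x = x + f x y • w + f x w • y + (c * f x w) • w := rfl

omit [Fintype ι] [DecidableEq ι] in
theorem hs_apply_zero (hb : Cfsg.Geo.IsBilinearForm f) (w y : ι → F) (c : F) :
    hs f w y c 0 = 0 := by
  rw [hs_apply, form_zero_left hb, form_zero_left hb, mul_zero, zero_smul, zero_smul]
  simp

omit [Fintype ι] [DecidableEq ι] in
theorem hs_tv (hb : Cfsg.Geo.IsBilinearForm f) (v : ι → F) (c : F) (x : ι → F) :
    hs f v 0 c x = x + (c * f x v) • v := by
  rw [hs_apply, form_zero_right hb, zero_smul, smul_zero, add_zero, add_zero]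

omit [Fintype ι] [DecidableEq ι] in
theorem hs_sm (w y : ι → F) (x : ι → F) : hs f w y 0 x = sm f w y x := by
  rw [hs_apply, sm_apply, zero_mul, zero_smul, add_zero]

omit [Fintype ι] [DecidableEq ι] in
theorem hs_swap (hb : Cfsg.Geo.IsBilinearForm f) (w y : ι → F) (c : F) (x : ι → F) :
    hs f w (c • y) 0 x = hs f y (c • w) 0 x := by
  rw [hs_apply, hs_apply, hb.smul_right, hb.smul_right]
  module

omit [Fintype ι] [DecidableEq ι] in
/-- The group law of the Heisenberg group at `w`. -/
theorem hs_mul (hf : Cfsg.Geo.IsSymplecticForm f) {w y y' : ι → F} (hwy : f w y = 0)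
    (hwy' : f w y' = 0) (c c' : F) (x : ι → F) :
    hs f w y c (hs f w y' c' x) = hs f w (y + y') (c + c' + f y' y) x := by
  have hb := hf.bilinear
  have hy'w : f y' w = 0 := by rw [hf.skew, hwy', neg_zero]
  rw [hs_apply, hs_apply, hs_apply]
  simp only [hb.add_left, hb.smul_left, hb.add_right, hwy, hy'w, hf.alternating w]
  module

omit [Fintype ι] [DecidableEq ι] in
theorem hs_inv (hf : Cfsg.Geo.IsSymplecticForm f) {w y : ι → F} (hwy : f w y = 0)
    (c : F) (x : ι → F) : hs f w y c (hs f w (-y) (-c) x) = x := by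
  have hb := hf.bilinear
  have hwy' : f w (-y) = 0 := by rw [form_neg_right hb, hwy, neg_zero]
  rw [hs_mul hf hwy hwy', hs_apply, form_neg_left hb, hf.alternating y]
  simp only [add_neg_cancel, neg_zero, add_zero, form_zero_right hb, zero_smul, smul_zero,
    zero_mul]

omit [Fintype ι] [DecidableEq ι] in
theorem hs_inv' (hf : Cfsg.Geo.IsSymplecticForm f) {w y : ι → F} (hwy : f w y = 0)
    (c : F) (x : ι → F) : hs f w (-y) (-c) (hs f w y c x) = x := by
  have hb := hf.bilinear
  have hwy' : f w (-y) = 0 := by rw [form_neg_right hb, hwy, neg_zero]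
  have h := hs_inv hf hwy' (-c) x
  rwa [neg_neg, neg_neg] at h

omit [Fintype ι] [DecidableEq ι] in
theorem hs_smul_left (hb : Cfsg.Geo.IsBilinearForm f) (l : F) (w y : ι → F) (c : F)
    (x : ι → F) : hs f (l • w) y c x = hs f w (l • y) (c * l ^ 2) x := by
  rw [hs_apply, hs_apply, hb.smul_right, hb.smul_right]
  module

omit [Fintype ι] [DecidableEq ι] in
theorem hs_add_self (hf : Cfsg.Geo.IsSymplecticForm f) (l : F) (w y : ι → F) (c : F)
    (x : ι → F) : hs f w (y + l • w) c x = hs f w y (c + 2 * l) x := by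
  have hb := hf.bilinear
  rw [hs_apply, hs_apply, hb.add_right, hb.smul_right]
  module

omit [Fintype ι] [DecidableEq ι] in
/-- A transvection with centre `y + w`, for `f y w = 0`. -/
theorem hs_tv_add (hf : Cfsg.Geo.IsSymplecticForm f) {y w : ι → F} (hyw : f y w = 0) (c : F)
    (x : ι → F) : hs f (y + w) 0 c x = hs f w (c • y) c (hs f y 0 c x) := by
  have hb := hf.bilinear
  rw [hs_tv hb, hs_tv hb, hs_apply]
  simp only [hb.add_left, hb.smul_left, hb.add_right, hb.smul_right, hyw, hf.alternating y]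
  module

/-- Conjugation of a Heisenberg element by an isometry. -/
theorem hs_conj (g : GL ι F)
    (hg : ∀ x y, f ((g : Matrix ι ι F) *ᵥ x) ((g : Matrix ι ι F) *ᵥ y) = f x y)
    (w y : ι → F) (c : F) (x : ι → F) :
    (g : Matrix ι ι F) *ᵥ hs f w y c (((g⁻¹ : GL ι F) : Matrix ι ι F) *ᵥ x) =
      hs f ((g : Matrix ι ι F) *ᵥ w) ((g : Matrix ι ι F) *ᵥ y) c x := by
  have key : ∀ z, f (((g⁻¹ : GL ι F) : Matrix ι ι F) *ᵥ x) z = f x ((g : Matrix ι ι F) *ᵥ z) := by
    intro z
    rw [← hg (((g⁻¹ : GL ι F) : Matrix ι ι F) *ᵥ x) z, gl_mulVec_inv]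
  rw [hs_apply, hs_apply, key, key, Matrix.mulVec_add, Matrix.mulVec_add, Matrix.mulVec_add,
    Matrix.mulVec_smul, Matrix.mulVec_smul, Matrix.mulVec_smul, gl_mulVec_inv]

theorem act_hs_eq {M : Subgroup (GL ι F)} {w y y' : ι → F} {c c' : F}
    (h : Act M (hs f w y c)) (hy : y = y') (hc : c = c') : Act M (hs f w y' c') := by
  subst hy hc
  exact h

theorem act_hs_eq3 {M : Subgroup (GL ι F)} {w w' y y' : ι → F} {c c' : F}
    (h : Act M (hs f w y c)) (hw : w = w') (hy : y = y') (hc : c = c') :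
    Act M (hs f w' y' c') := by
  subst hw hy hc
  exact h

theorem act_hs_conj {M : Subgroup (GL ι F)}
    (hiso : ∀ g ∈ M, ∀ x y, f ((g : Matrix ι ι F) *ᵥ x) ((g : Matrix ι ι F) *ᵥ y) = f x y)
    {ψ : (ι → F) → (ι → F)} (hψ : Act M ψ) {w y : ι → F} {c : F} (h : Act M (hs f w y c)) :
    Act M (hs f (ψ w) (ψ y) c) := by
  obtain ⟨k, hk, hkx⟩ := hψ
  refine (Act.conj hk h).congr (fun x => ?_)
  rw [hs_conj k (hiso k hk), hkx, hkx]

theorem act_hs_mul {M : Subgroup (GL ι F)} (hf : Cfsg.Geo.IsSymplecticForm f) {w y y' : ι → F}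
    {c c' : F} (hwy : f w y = 0) (hwy' : f w y' = 0) (h1 : Act M (hs f w y c))
    (h2 : Act M (hs f w y' c')) : Act M (hs f w (y + y') (c + c' + f y' y)) :=
  (h1.comp h2).congr (fun x => hs_mul hf hwy hwy' c c' x)

theorem act_hs_inv {M : Subgroup (GL ι F)} (hf : Cfsg.Geo.IsSymplecticForm f) {w y : ι → F}
    {c : F} (hwy : f w y = 0) (h : Act M (hs f w y c)) : Act M (hs f w (-y) (-c)) :=
  h.inv (fun x => hs_inv hf hwy c x)

/-- The quotient of two Heisenberg elements at `w`. -/
theorem act_hs_div {M : Subgroup (GL ι F)} (hf : Cfsg.Geo.IsSymplecticForm f) {w y y' : ι → F}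
    {c c' : F} (hwy : f w y = 0) (hwy' : f w y' = 0) (h1 : Act M (hs f w y c))
    (h2 : Act M (hs f w y' c')) : Act M (hs f w (y - y') (c - c' - f y' y)) := by
  have hb := hf.bilinear
  have hwy'' : f w (-y') = 0 := by rw [form_neg_right hb, hwy', neg_zero]
  have h3 := act_hs_mul hf hwy hwy'' h1 (act_hs_inv hf hwy' h2)
  refine act_hs_eq h3 (by rw [sub_eq_add_neg]) ?_
  rw [form_neg_left hb]
  ring

/-- The commutator relation between short root elements. -/
theorem act_comm_step {M : Subgroup (GL ι F)} (hf : Cfsg.Geo.IsSymplecticForm f)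
    (hiso : ∀ g ∈ M, ∀ x y, f ((g : Matrix ι ι F) *ᵥ x) ((g : Matrix ι ι F) *ᵥ y) = f x y)
    {u v w w' : ι → F} {c d : F} (huv : f u v = 0) (huw : f u w = 0)
    (hvw : f v w = 0) (hvw' : f v w' = 0) (hww' : f w w' = 1)
    (h1 : Act M (hs f w' (c • u) 0)) (h2 : Act M (hs f v (d • w) 0)) :
    Act M (hs f v ((d * c) • u) 0) := by
  have hb := hf.bilinear
  have hvu : f v u = 0 := by rw [hf.skew, huv, neg_zero]
  have hwu : f w u = 0 := by rw [hf.skew, huw, neg_zero]
  have h3 := act_hs_conj hiso h1 h2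
  have e1 : hs f w' (c • u) 0 v = v := by
    rw [hs_apply, hb.smul_right, hvu, hvw', mul_zero, zero_smul, zero_smul, mul_zero, zero_smul,
      add_zero, add_zero, add_zero]
  have e2 : hs f w' (c • u) 0 (d • w) = d • w + (d * c) • u := by
    rw [hs_apply, hb.smul_left, hb.smul_right, hb.smul_left, hwu, hww']
    module
  rw [e1, e2] at h3
  have hv1 : f v (d • w + (d * c) • u) = 0 := by
    rw [hb.add_right, hb.smul_right, hb.smul_right, hvw, hvu, mul_zero, mul_zero, add_zero]
  have hv2 : f v (d • w) = 0 := by rw [hb.smul_right, hvw, mul_zero]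
  have h4 := act_hs_div hf hv1 hv2 h3 h2
  refine act_hs_eq h4 (by module) ?_
  rw [hb.smul_left, hb.add_right, hb.smul_right, hb.smul_right, hf.alternating, hwu]
  ring

/-- An overgroup `M` of the rational isometries of `f`, consisting of isometries. -/
structure SubfData (f : (ι → F) → (ι → F) → F) (F₀ : Subfield F) (M : Subgroup (GL ι F)) :
    Prop where
  iso : ∀ g ∈ M, ∀ x y, f ((g : Matrix ι ι F) *ᵥ x) ((g : Matrix ι ι F) *ᵥ y) = f x y
  rat : ∀ g : GL ι F,
    (∀ x y, f ((g : Matrix ι ι F) *ᵥ x) ((g : Matrix ι ι F) *ᵥ y) = f x y) →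
    RatM F₀ (g : Matrix ι ι F) → g ∈ M
  frat : ∀ u v, RatV F₀ u → RatV F₀ v → f u v ∈ F₀

theorem ratM_of_cols {F₀ : Subfield F} {A : Matrix ι ι F}
    (h : ∀ j, RatV F₀ (A *ᵥ Pi.single j 1)) : RatM F₀ A := by
  intro i j
  have h1 := h j i
  rwa [Matrix.mulVec_single_one] at h1

theorem ratV_hs {F₀ : Subfield F} {M : Subgroup (GL ι F)} (D : SubfData f F₀ M)
    {w y x : ι → F} {c : F} (hw : RatV F₀ w) (hy : RatV F₀ y) (hc : c ∈ F₀) (hx : RatV F₀ x) :
    RatV F₀ (hs f w y c x) :=
  ratV_add (ratV_add (ratV_add hx (ratV_smul (D.frat x y hx hy) hw))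
    (ratV_smul (D.frat x w hx hw) hy)) (ratV_smul (F₀.mul_mem hc (D.frat x w hx hw)) hw)

/-- Rational Heisenberg elements lie in `M`. -/
theorem act_hs_rat {F₀ : Subfield F} {M : Subgroup (GL ι F)}
    (hf : Cfsg.Geo.IsSymplecticForm f) (D : SubfData f F₀ M) {w y : ι → F} {c : F}
    (hw : RatV F₀ w) (hy : RatV F₀ y) (hc : c ∈ F₀) (hwy : f w y = 0) :
    Act M (hs f w y c) := by
  have hb := hf.bilinear
  obtain ⟨s, hs1, hs2⟩ := exists_sm hf hwy
  have hact : ∀ x, ((s * tvG w (c • rho f w) (symp_dot0 hf w c) : GL ι F) : Matrix ι ι F) *ᵥ x =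
      hs f w y c x := by
    intro x
    rw [Units.val_mul, ← Matrix.mulVec_mulVec, stv_mulVec hf, hs1, sm_apply, hs_apply]
    simp only [hb.add_left, hb.smul_left, hwy, hf.alternating w]
    module
  refine ⟨s * tvG w (c • rho f w) (symp_dot0 hf w c), D.rat _ ?_ ?_, hact⟩
  · intro x z
    rw [Units.val_mul, ← Matrix.mulVec_mulVec, ← Matrix.mulVec_mulVec, hs2, stv_pres hf]
  · apply ratM_of_cols
    intro j
    rw [hact]
    exact ratV_hs D hw hy hc (ratV_single F₀ j F₀.one_mem)

/-- Conjugating by an element of `M` given through its action. -/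
theorem act_mulVec {M : Subgroup (GL ι F)} {g : GL ι F} (hg : g ∈ M) :
    Act M (fun x => (g : Matrix ι ι F) *ᵥ x) := ⟨g, hg, fun _ => rfl⟩

/-- A predicate on `F` closed under the ring operations and containing `F₀` is `F₀` or
everything, when `F` has prime degree over `F₀`. -/
theorem pred_dichotomy [Fintype F] {F₀ : Subfield F} (S : F → Prop)
    (hmem : ∀ c ∈ F₀, S c) (hadd : ∀ a b, S a → S b → S (a + b)) (hneg : ∀ a, S a → S (-a))
    (hmul : ∀ a b, S a → S b → S (a * b))
    (r : ℕ) (hr : r.Prime) (hcard : Fintype.card F = Nat.card F₀ ^ r) :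
    (∀ c : F, S c → c ∈ F₀) ∨ (∀ c : F, S c) := by
  classical
  let R : Subring F :=
    { carrier := {c | S c}
      mul_mem' := fun ha hb => hmul _ _ ha hb
      one_mem' := hmem 1 F₀.one_mem
      add_mem' := fun ha hb => hadd _ _ ha hb
      zero_mem' := hmem 0 F₀.zero_mem
      neg_mem' := fun ha => hneg _ ha }
  let K : Subfield F :=
    { R with
      inv_mem' := by
        intro c hc
        by_cases h0 : c = 0
        · subst h0; rw [_root_.inv_zero]; exact R.zero_mem
        · have h1 : c⁻¹ = c ^ (Fintype.card F - 2) := by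
            have h2 := FiniteField.pow_card_sub_one_eq_one c h0
            have h4 : Fintype.card F - 1 = (Fintype.card F - 2) + 1 := by
              have := Fintype.one_lt_card (α := F); omega
            rw [h4, pow_succ] at h2
            exact inv_eq_of_mul_eq_one_left h2
          rw [h1]; exact R.pow_mem hc _ }
  have hle : ∀ x : F₀, algebraMap F₀ F x ∈ K := fun x => hmem _ x.2
  let E : IntermediateField F₀ F := Subfield.toIntermediateField K hle
  have hfin : Module.finrank F₀ F = r := finrank_of_card F₀ r hcard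
  have hso := IntermediateField.isSimpleOrder_of_finrank_prime F₀ F (by rw [hfin]; exact hr)
  rcases eq_bot_or_eq_top E with hE | hE
  · left
    intro c hc
    have h1 : c ∈ E := hc
    rw [hE, IntermediateField.mem_bot] at h1
    obtain ⟨x, rfl⟩ := h1
    exact x.2
  · right
    intro c
    have h1 : c ∈ E := by rw [hE]; exact IntermediateField.mem_top
    exact h1

end SpHeis

end Cfsg.Agent.Lib.Helper50
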