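import Mathlib
import Cfsg.Prelude.Def_GeometricClasses
import Cfsg.Agent.Lib.Helper97.SpGen
import Cfsg.Agent.Lib.Helper50.SpHeis

/-!
# Overgroups of the subfield group in `Sp_2m`: the parameter field

Helper library (helper50).  For the standard symplectic form on `F^(Fin m ⊕ Fin m)` and an
overgroup `M` of the rational isometries (`SubfData`), `InK M c` says that all short root elements
`x ↦ x + c f(x, e_l) e_k + c f(x, e_k) e_l` of the standard frame lie in `M`.  These parameters
form a subfield containing `F₀`.  If it is everything, every vector is a transvection centre of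
`M` (`inS_all`), so `M` contains the symplectic group.
-/

set_option autoImplicit false

namespace Cfsg.Agent.Lib.Helper50

open Matrix Cfsg.Agent.Lib.Helper97

section SpFrame

variable {F : Type*} [Field F] {m : ℕ}

local notation "sf" => Cfsg.sympForm m F

/-- The dual index of a frame index. -/
def sbar : Fin m ⊕ Fin m → Fin m ⊕ Fin m := Sum.swap

/-- The hyperbolic plane of a frame index. -/
def sidx : Fin m ⊕ Fin m → Fin m := Sum.elim id id

/-- The sign with `f(x, e_k) = stau k * x (sbar k)`. -/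
def stau (F : Type*) [Field F] {m : ℕ} : Fin m ⊕ Fin m → F := Sum.elim (fun _ => 1) (fun _ => -1)

theorem sbar_sbar (k : Fin m ⊕ Fin m) : sbar (sbar k) = k := Sum.swap_swap k

theorem sbar_ne (k : Fin m ⊕ Fin m) : sbar k ≠ k := by
  rcases k with i | i <;> simp [sbar]

theorem sidx_sbar (k : Fin m ⊕ Fin m) : sidx (sbar k) = sidx k := by
  rcases k with i | i <;> rfl

theorem eq_or_eq_sbar {k l : Fin m ⊕ Fin m} (h : sidx k = sidx l) : k = l ∨ k = sbar l := by
  rcases k with i | i <;> rcases l with j | j <;> simp only [sidx, Sum.elim_inl, Sum.elim_inr,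
    id] at h <;> subst h <;> simp [sbar]

theorem stau_mul_self (k : Fin m ⊕ Fin m) : stau F k * stau F k = 1 := by
  rcases k with i | i <;> simp [stau]

theorem stau_ne_zero (k : Fin m ⊕ Fin m) : stau F k ≠ 0 := by
  rcases k with i | i <;> simp [stau]

theorem stau_sbar (k : Fin m ⊕ Fin m) : stau F (sbar k) = - stau F k := by
  rcases k with i | i <;> simp [stau, sbar]

theorem stau_mem (F₀ : Subfield F) (k : Fin m ⊕ Fin m) : stau F k ∈ F₀ := by
  rcases k with i | i
  · exact F₀.one_mem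
  · exact F₀.neg_mem F₀.one_mem

theorem sympForm_single (x : Fin m ⊕ Fin m → F) (k : Fin m ⊕ Fin m) :
    sf x (Pi.single k 1) = stau F k * x (sbar k) := by
  unfold Cfsg.sympForm
  rw [Matrix.mulVec_single_one]
  rcases k with i | i
  · simp [dotProduct, Fintype.sum_sum_type, Matrix.J, Matrix.one_apply, stau, sbar]
  · simp [dotProduct, Fintype.sum_sum_type, Matrix.J, Matrix.one_apply, stau, sbar]

theorem sympForm_single_left (x : Fin m ⊕ Fin m → F) (k : Fin m ⊕ Fin m) :
    sf (Pi.single k 1) x = - (stau F k * x (sbar k)) := by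
  rw [(sympForm_symp m).skew, sympForm_single]

theorem sympForm_single_ne {k l : Fin m ⊕ Fin m} (h : sidx k ≠ sidx l) :
    sf (Pi.single k 1) (Pi.single l 1) = 0 := by
  rw [sympForm_single, Pi.single_eq_of_ne, mul_zero]
  intro h'
  apply h
  rw [← h', sidx_sbar]

theorem ratM_J (F₀ : Subfield F) : RatM F₀ (Matrix.J (Fin m) F) := by
  intro i j
  rcases i with i | i <;> rcases j with j | j <;>
    simp only [Matrix.J, Matrix.fromBlocks_apply₁₁, Matrix.fromBlocks_apply₁₂,
      Matrix.fromBlocks_apply₂₁, Matrix.fromBlocks_apply₂₂, Matrix.zero_apply, Matrix.neg_apply,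
      Matrix.one_apply]
  · exact F₀.zero_mem
  · split_ifs
    · exact F₀.neg_mem F₀.one_mem
    · rw [neg_zero]; exact F₀.zero_mem
  · split_ifs
    · exact F₀.one_mem
    · exact F₀.zero_mem
  · exact F₀.zero_mem

theorem sympForm_rat {F₀ : Subfield F} {u v : Fin m ⊕ Fin m → F} (hu : RatV F₀ u)
    (hv : RatV F₀ v) : sf u v ∈ F₀ :=
  ratV_dot hu (ratM_mulVec (ratM_J F₀) hv)

theorem subfData_of {F₀ : Subfield F} {M : Subgroup (GL (Fin m ⊕ Fin m) F)}
    (hHM : H1 (Fin m ⊕ Fin m) F₀ ⊓ Cfsg.spGL m F ≤ M) (hMK : M ≤ Cfsg.spGL m F) :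
    SubfData sf F₀ M := by
  refine ⟨fun g hg => hMK hg, fun g hiso hrat => hHM ⟨?_, hiso⟩, fun u v hu hv => sympForm_rat hu hv⟩
  exact mem_H1_of F₀ g 1 one_ne_zero _ hrat (by rw [one_smul])

/-- `c` is a short root parameter of `M` for the standard frame. -/
def InK (M : Subgroup (GL (Fin m ⊕ Fin m) F)) (c : F) : Prop :=
  ∀ k l : Fin m ⊕ Fin m, sidx k ≠ sidx l →
    Act M (hs (Cfsg.sympForm m F) (Pi.single k 1) (c • Pi.single l 1) 0)

theorem inK_of_mem {F₀ : Subfield F} {M : Subgroup (GL (Fin m ⊕ Fin m) F)}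
    (D : SubfData sf F₀ M) {c : F} (hc : c ∈ F₀) : InK M c := by
  intro k l hkl
  refine act_hs_rat (sympForm_symp m) D (ratV_single F₀ k F₀.one_mem)
    (ratV_smul hc (ratV_single F₀ l F₀.one_mem)) F₀.zero_mem ?_
  rw [(sympForm_symp m).bilinear.smul_right, sympForm_single_ne hkl, mul_zero]

theorem inK_add {M : Subgroup (GL (Fin m ⊕ Fin m) F)} {a b : F} (ha : InK M a)
    (hb : InK M b) : InK M (a + b) := by
  intro k l hkl
  have hb' := (sympForm_symp (F := F) m).bilinear
  have e1 : sf (Pi.single k 1) (a • Pi.single l 1) = 0 := by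
    rw [hb'.smul_right, sympForm_single_ne hkl, mul_zero]
  have e2 : sf (Pi.single k 1) (b • Pi.single l 1) = 0 := by
    rw [hb'.smul_right, sympForm_single_ne hkl, mul_zero]
  have h := act_hs_mul (sympForm_symp m) e1 e2 (ha k l hkl) (hb k l hkl)
  refine act_hs_eq h (by rw [add_smul]) ?_
  rw [hb'.smul_left, hb'.smul_right, (sympForm_symp m).alternating, mul_zero, mul_zero, add_zero,
    add_zero]

theorem inK_neg {M : Subgroup (GL (Fin m ⊕ Fin m) F)} {a : F} (ha : InK M a) :
    InK M (-a) := by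
  intro k l hkl
  have hb' := (sympForm_symp (F := F) m).bilinear
  have e1 : sf (Pi.single k 1) (a • Pi.single l 1) = 0 := by
    rw [hb'.smul_right, sympForm_single_ne hkl, mul_zero]
  have h := act_hs_inv (sympForm_symp m) e1 (ha k l hkl)
  exact act_hs_eq h (by rw [neg_smul]) neg_zero

theorem inK_mul {F₀ : Subfield F} {M : Subgroup (GL (Fin m ⊕ Fin m) F)}
    (D : SubfData sf F₀ M) (h3 : 3 ≤ m) {a b : F} (ha : InK M a) (hb : InK M b) :
    InK M (a * b) := by
  intro k l hkl
  obtain ⟨t, htk, htl⟩ := fin_third h3 (sidx k) (sidx l)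
  have h1 : Act M (hs sf (Pi.single (Sum.inl t) 1) (b • Pi.single l 1) 0) :=
    hb (Sum.inl t) l htl
  have h2 : Act M (hs sf (Pi.single k 1) (a • Pi.single (Sum.inr t) 1) 0) :=
    ha k (Sum.inr t) (Ne.symm htk)
  have hww' : sf (Pi.single (Sum.inr t) 1) (Pi.single (Sum.inl t) 1) = 1 := by
    rw [sympForm_single]
    simp [stau, sbar]
  exact act_comm_step (sympForm_symp m) D.iso (sympForm_single_ne (Ne.symm hkl))
    (sympForm_single_ne (k := l) (l := Sum.inr t) (Ne.symm htl))
    (sympForm_single_ne (k := k) (l := Sum.inr t) (Ne.symm htk))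
    (sympForm_single_ne (k := k) (l := Sum.inl t) (Ne.symm htk)) hww' h1 h2

theorem inK_swap {M : Subgroup (GL (Fin m ⊕ Fin m) F)} {k l : Fin m ⊕ Fin m} {ν : F}
    (h : Act M (hs sf (Pi.single k 1) (ν • Pi.single l 1) 0)) :
    Act M (hs sf (Pi.single l 1) (ν • Pi.single k 1) 0) :=
  h.congr (fun x => hs_swap (sympForm_symp m).bilinear _ _ _ x)

/-- Replace the second frame vector of a short root element by one from a third plane. -/
theorem inK_move2 {F₀ : Subfield F} {M : Subgroup (GL (Fin m ⊕ Fin m) F)}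
    (D : SubfData sf F₀ M) {k l l' : Fin m ⊕ Fin m} (hkl : sidx k ≠ sidx l)
    (hkl' : sidx k ≠ sidx l') (hll' : sidx l ≠ sidx l') {ν : F}
    (h : Act M (hs sf (Pi.single k 1) (ν • Pi.single l 1) 0)) :
    Act M (hs sf (Pi.single k 1) (ν • Pi.single l' 1) 0) := by
  have hf := sympForm_symp (F := F) m
  have hb := hf.bilinear
  have hsl : sidx (sbar l) ≠ sidx l' := by rw [sidx_sbar]; exact hll'
  have hks : sidx k ≠ sidx (sbar l) := by rw [sidx_sbar]; exact hkl
  have h1 : Act M (hs sf (stau F (sbar l) • Pi.single (sbar l) 1) ((1 : F) • Pi.single l' 1) 0) := by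
    refine act_hs_rat hf D (ratV_smul (stau_mem F₀ _) (ratV_single F₀ _ F₀.one_mem))
      (ratV_smul F₀.one_mem (ratV_single F₀ _ F₀.one_mem)) F₀.zero_mem ?_
    rw [hb.smul_left, hb.smul_right, sympForm_single_ne hsl, mul_zero, mul_zero]
  have hww' : sf (Pi.single l 1) (stau F (sbar l) • Pi.single (sbar l) 1) = 1 := by
    rw [hb.smul_right, sympForm_single, sbar_sbar, Pi.single_eq_same, mul_one, stau_mul_self]
  have hvw' : sf (Pi.single k 1) (stau F (sbar l) • Pi.single (sbar l) 1) = 0 := by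
    rw [hb.smul_right, sympForm_single_ne hks, mul_zero]
  have h3 := act_comm_step hf D.iso (sympForm_single_ne (Ne.symm hkl'))
    (sympForm_single_ne (Ne.symm hll')) (sympForm_single_ne hkl) hvw' hww' h1 h
  exact act_hs_eq h3 (by rw [mul_one]) rfl

theorem exists_fresh (S : Finset (Fin m)) (h : S.card < m) : ∃ t, t ∉ S := by
  by_contra hcon
  push Not at hcon
  have h1 : S = Finset.univ := Finset.eq_univ_of_forall hcon
  rw [h1, Finset.card_univ, Fintype.card_fin] at h
  exact lt_irrefl _ h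

/-- One short root element with parameter `ν` forces `ν` to be a parameter. -/
theorem inK_of_one {F₀ : Subfield F} {M : Subgroup (GL (Fin m ⊕ Fin m) F)}
    (D : SubfData sf F₀ M) (hm : 6 ≤ m) {a b : Fin m ⊕ Fin m} (hab : sidx a ≠ sidx b) {ν : F}
    (h : Act M (hs sf (Pi.single a 1) (ν • Pi.single b 1) 0)) : InK M ν := by
  intro k l hkl
  obtain ⟨t1, ht1⟩ := exists_fresh ({sidx a, sidx b, sidx k, sidx l} : Finset (Fin m))
    (lt_of_le_of_lt Finset.card_le_four (by omega))
  obtain ⟨t2, ht2⟩ := exists_fresh ({sidx a, sidx b, sidx k, sidx l, t1} : Finset (Fin m))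
    (lt_of_le_of_lt Finset.card_le_five (by omega))
  simp only [Finset.mem_insert, Finset.mem_singleton, not_or] at ht1 ht2
  obtain ⟨h1a, h1b, h1k, h1l⟩ := ht1
  obtain ⟨h2a, h2b, h2k, h2l, h21⟩ := ht2
  have s1 : Act M (hs sf (Pi.single a 1) (ν • Pi.single (Sum.inl t1) 1) 0) :=
    inK_move2 D (k := a) (l := b) (l' := Sum.inl t1) hab (fun h => h1a h.symm)
      (fun h => h1b h.symm) h
  have s2 : Act M (hs sf (Pi.single (Sum.inl t2) 1) (ν • Pi.single (Sum.inl t1) 1) 0) :=
    inK_swap (inK_move2 D (k := Sum.inl t1) (l := a) (l' := Sum.inl t2) h1a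
      (fun h => h21 h.symm) (fun h => h2a h.symm) (inK_swap s1))
  have s3 : Act M (hs sf (Pi.single (Sum.inl t2) 1) (ν • Pi.single l 1) 0) :=
    inK_move2 D (k := Sum.inl t2) (l := Sum.inl t1) (l' := l) h21 h2l h1l s2
  exact inK_swap (inK_move2 D (k := l) (l := Sum.inl t2) (l' := k) (fun h => h2l h.symm)
    (Ne.symm hkl) h2k (inK_swap s3))

theorem inK_dichotomy [Fintype F] {F₀ : Subfield F} {M : Subgroup (GL (Fin m ⊕ Fin m) F)}
    (D : SubfData sf F₀ M) (h3 : 3 ≤ m) (r : ℕ) (hr : r.Prime)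
    (hcard : Fintype.card F = Nat.card F₀ ^ r) :
    (∀ c : F, InK M c → c ∈ F₀) ∨ (∀ c : F, InK M c) :=
  pred_dichotomy (InK M) (fun _ hc => inK_of_mem D hc) (fun _ _ => inK_add) (fun _ => inK_neg)
    (fun _ _ ha hb => inK_mul D h3 ha hb) r hr hcard

end SpFrame

end Cfsg.Agent.Lib.Helper50
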