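import Mathlib
import Cfsg.Prelude.Def_GeometricClasses
import Cfsg.Agent.Lib.Helper97.SpGen
import Cfsg.Agent.Lib.Helper50.SpHeis
import Cfsg.Agent.Lib.Helper50.SpFrame

/-!
# Overgroups of the subfield group in `Sp_2m`: the case of a full parameter field

Helper library (helper50).  If every element of `F` is a short root parameter of `M`
(`InK M c` for all `c`), then all transvections with centre a frame vector lie in `M`, and by
induction on the support every vector is a transvection centre of `M` (`inS_all`).
-/

set_option autoImplicit false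

namespace Cfsg.Agent.Lib.Helper50

open Matrix Cfsg.Agent.Lib.Helper97

section SpAll

variable {F : Type*} [Field F] {m : ℕ}

local notation "sf" => Cfsg.sympForm m F

/-- Transvections at frame vectors with a square parameter. -/
theorem act_long_sq {F₀ : Subfield F} {M : Subgroup (GL (Fin m ⊕ Fin m) F)}
    (D : SubfData sf F₀ M) (h3 : 3 ≤ m) (hall : ∀ c : F, InK M c) (k : Fin m ⊕ Fin m) (b : F) :
    Act M (hs sf (Pi.single k 1) 0 (b ^ 2)) := by
  have hf := sympForm_symp (F := F) m
  have hb := hf.bilinear
  obtain ⟨t, ht, -⟩ := fin_third h3 (sidx k) (sidx k)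
  have hlk : sidx (Sum.inl t : Fin m ⊕ Fin m) ≠ sidx k := ht
  have hψ : Act M (hs sf (Pi.single k 1)
      ((b * stau F (sbar (Sum.inl t : Fin m ⊕ Fin m))) • Pi.single (sbar (Sum.inl t)) 1) 0) :=
    hall _ k (sbar (Sum.inl t)) (by rw [sidx_sbar]; exact Ne.symm hlk)
  have htl : Act M (hs sf (Pi.single (Sum.inl t) 1) 0 1) :=
    act_hs_rat hf D (ratV_single F₀ _ F₀.one_mem) (ratV_zero F₀) F₀.one_mem
      (form_zero_right hb _)
  have h1 := act_hs_conj D.iso hψ htl
  have e1 : hs sf (Pi.single k 1)
      ((b * stau F (sbar (Sum.inl t : Fin m ⊕ Fin m))) • Pi.single (sbar (Sum.inl t)) 1) 0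
      (Pi.single (Sum.inl t) 1) = Pi.single (Sum.inl t) 1 + b • Pi.single k 1 := by
    rw [hs_apply, hb.smul_right, sympForm_single, sbar_sbar, Pi.single_eq_same,
      sympForm_single_ne hlk, mul_one, mul_assoc, stau_mul_self, mul_one, zero_smul, mul_zero,
      zero_smul, add_zero, add_zero]
  rw [e1, hs_apply_zero hb] at h1
  have hyw : sf (Pi.single (Sum.inl t) 1) (b • Pi.single k 1) = 0 := by
    rw [hb.smul_right, sympForm_single_ne hlk, mul_zero]
  have h2 : Act M (hs sf (b • Pi.single k 1) ((1 : F) • Pi.single (Sum.inl t) 1) 1) := by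
    have h3 := h1.comp (act_hs_inv hf (form_zero_right hb _) htl)
    refine h3.congr (fun x => ?_)
    rw [hs_tv_add hf hyw, hs_inv hf (form_zero_right hb _)]
  have h4 : Act M (hs sf (Pi.single k 1) (b • ((1 : F) • Pi.single (Sum.inl t) 1)) (1 * b ^ 2)) :=
    h2.congr (fun x => hs_smul_left hb b _ _ _ x)
  have e3 : sf (Pi.single k 1) (b • ((1 : F) • Pi.single (Sum.inl t) 1)) = 0 := by
    rw [hb.smul_right, hb.smul_right, sympForm_single_ne (Ne.symm hlk), mul_zero, mul_zero]
  have e4 : sf (Pi.single k 1) (b • Pi.single (Sum.inl t) 1) = 0 := by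
    rw [hb.smul_right, sympForm_single_ne (Ne.symm hlk), mul_zero]
  have h5 := act_hs_div hf e3 e4 h4 (hall b k (Sum.inl t) (Ne.symm hlk))
  refine act_hs_eq h5 (by rw [one_smul, sub_self]) ?_
  rw [hb.smul_left, hb.smul_right, hb.smul_right, hf.alternating]
  ring

/-- All transvections at frame vectors. -/
theorem act_long [Fintype F] {F₀ : Subfield F} {M : Subgroup (GL (Fin m ⊕ Fin m) F)}
    (D : SubfData sf F₀ M) (h3 : 3 ≤ m) (hall : ∀ c : F, InK M c) (k : Fin m ⊕ Fin m) (c : F) :
    Act M (hs sf (Pi.single k 1) 0 c) := by
  have hf := sympForm_symp (F := F) m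
  have hb := hf.bilinear
  by_cases h2 : (2 : F) = 0
  · have hchar : ringChar F = 2 :=
      CharP.ringChar_of_prime_eq_zero Nat.prime_two (by exact_mod_cast h2)
    obtain ⟨b, hbc⟩ := FiniteField.isSquare_of_char_two hchar c
    exact act_hs_eq (act_long_sq D h3 hall k b) rfl (by rw [hbc, sq])
  · have h1 := act_long_sq D h3 hall k ((c + 1) / 2)
    have h2' := act_long_sq D h3 hall k ((c - 1) / 2)
    have h5 := act_hs_div hf (form_zero_right hb _) (form_zero_right hb _) h1 h2'
    refine act_hs_eq h5 (sub_self 0) ?_
    rw [form_zero_left hb]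
    field_simp
    ring

theorem inS_of_act {F₀ : Subfield F} {M : Subgroup (GL (Fin m ⊕ Fin m) F)}
    (D : SubfData sf F₀ M) {ψ : (Fin m ⊕ Fin m → F) → (Fin m ⊕ Fin m → F)} (hψ : Act M ψ)
    {v : Fin m ⊕ Fin m → F} (hv : InS sf M v) : InS sf M (ψ v) := by
  obtain ⟨g, hg, hgx⟩ := hψ
  rw [← hgx]
  exact InS_conj (sympForm_symp m) hg (D.iso g hg) hv

theorem inS_single [Fintype F] {F₀ : Subfield F} {M : Subgroup (GL (Fin m ⊕ Fin m) F)}
    (D : SubfData sf F₀ M) (h3 : 3 ≤ m) (hall : ∀ c : F, InK M c) (k : Fin m ⊕ Fin m) :
    InS sf M (Pi.single k 1) :=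
  InS_of_Act (sympForm_symp m) (fun c => (act_long D h3 hall k c).congr
    (fun x => hs_tv (sympForm_symp m).bilinear _ _ x))

open Classical in
theorem card_update_lt (v : Fin m ⊕ Fin m → F) (l : Fin m ⊕ Fin m) (hl : v l ≠ 0) :
    (Finset.univ.filter (fun j => Function.update v l 0 j ≠ 0)).card <
      (Finset.univ.filter (fun j => v j ≠ 0)).card := by
  have hsub : Finset.univ.filter (fun j => Function.update v l 0 j ≠ 0) ⊆
      (Finset.univ.filter (fun j => v j ≠ 0)).erase l := by
    intro i hi
    rw [Finset.mem_filter] at hi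
    have hil : i ≠ l := by
      intro h
      rw [h, Function.update_self] at hi
      exact hi.2 rfl
    rw [Function.update_of_ne hil] at hi
    exact Finset.mem_erase.mpr ⟨hil, Finset.mem_filter.mpr ⟨Finset.mem_univ _, hi.2⟩⟩
  exact lt_of_le_of_lt (Finset.card_le_card hsub)
    (Finset.card_erase_lt_of_mem (Finset.mem_filter.mpr ⟨Finset.mem_univ _, hl⟩))

open Classical in
/-- If all field elements are parameters, every vector is a transvection centre of `M`. -/
theorem inS_all [Fintype F] {F₀ : Subfield F} {M : Subgroup (GL (Fin m ⊕ Fin m) F)}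
    (D : SubfData sf F₀ M) (h3 : 3 ≤ m) (hall : ∀ c : F, InK M c) :
    ∀ v : Fin m ⊕ Fin m → F, InS sf M v := by
  have hf := sympForm_symp (F := F) m
  have hb := hf.bilinear
  have key : ∀ n : ℕ, ∀ v : Fin m ⊕ Fin m → F,
      (Finset.univ.filter (fun j => v j ≠ 0)).card = n → InS sf M v := by
    intro n
    induction n using Nat.strong_induction_on with
    | _ n ih =>
      intro v hv
      by_cases hT : ∃ j, v j ≠ 0 ∧ v (sbar j) ≠ 0
      · obtain ⟨j, hj, hj'⟩ := hT
        have hcard := card_update_lt v (sbar j) hj'
        rw [hv] at hcard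
        have hIH := ih _ hcard (Function.update v (sbar j) 0) rfl
        have hfv : sf (Function.update v (sbar j) 0) (Pi.single (sbar j) 1) =
            stau F (sbar j) * v j := by
          rw [sympForm_single, sbar_sbar, Function.update_of_ne (sbar_ne j).symm]
        have hne : sf (Function.update v (sbar j) 0) (Pi.single (sbar j) 1) ≠ 0 := by
          rw [hfv]; exact mul_ne_zero (stau_ne_zero _) hj
        have h1 := InS_move hf (inS_single D h3 hall (sbar j)) hIH
          (v (sbar j) / sf (Function.update v (sbar j) 0) (Pi.single (sbar j) 1))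
        have e : Function.update v (sbar j) 0 +
            (v (sbar j) / sf (Function.update v (sbar j) 0) (Pi.single (sbar j) 1) *
              sf (Function.update v (sbar j) 0) (Pi.single (sbar j) 1)) •
              (Pi.single (sbar j) 1 : Fin m ⊕ Fin m → F) = v := by
          rw [div_mul_cancel₀ _ hne]
          funext i
          by_cases hi : i = sbar j
          · subst hi
            simp
          · simp [Function.update_of_ne hi, Pi.single_eq_of_ne hi]
        rwa [e] at h1
      · push Not at hT
        by_cases hv0 : v = 0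
        · rw [hv0]; exact InS_zero hf M
        obtain ⟨j, hj⟩ := Function.ne_iff.mp hv0
        rw [Pi.zero_apply] at hj
        by_cases hone : ∀ l, l ≠ j → v l = 0
        · have e : v = v j • (Pi.single j 1 : Fin m ⊕ Fin m → F) := by
            funext i
            by_cases hi : i = j
            · subst hi; simp
            · simp [hone i hi, Pi.single_eq_of_ne hi]
          rw [e]
          exact InS_smul hf (inS_single D h3 hall j) (v j)
        · push Not at hone
          obtain ⟨l, hlj, hl⟩ := hone
          have hidx : sidx l ≠ sidx j := by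
            intro h
            rcases eq_or_eq_sbar h with h' | h'
            · exact hlj h'
            · rw [h'] at hl; exact hl (hT j hj)
          have hidx' : sidx l ≠ sidx (sbar j) := by rw [sidx_sbar]; exact hidx
          have hψ : Act M (hs sf (Pi.single l 1)
              ((- v l / (stau F (sbar j) * v j)) • Pi.single (sbar j) 1) 0) :=
            hall _ l (sbar j) hidx'
          have e0 : sf (Pi.single l 1)
              ((- v l / (stau F (sbar j) * v j)) • Pi.single (sbar j) 1) = 0 := by
            rw [hb.smul_right, sympForm_single_ne hidx', mul_zero]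
          have hψv : hs sf (Pi.single l 1)
              ((- v l / (stau F (sbar j) * v j)) • Pi.single (sbar j) 1) 0 v =
              Function.update v l 0 := by
            have hden : stau F (sbar j) * v j ≠ 0 := mul_ne_zero (stau_ne_zero _) hj
            rw [hs_apply, hb.smul_right, sympForm_single, sbar_sbar, sympForm_single, hT l hl,
              div_mul_cancel₀ _ hden, mul_zero, zero_smul, mul_zero, zero_smul, add_zero, add_zero]
            funext i
            by_cases hi : i = l
            · subst hi; simp
            · simp [Function.update_of_ne hi, Pi.single_eq_of_ne hi]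
          have hcard := card_update_lt v l hl
          rw [hv] at hcard
          have hIH := ih _ hcard (Function.update v l 0) rfl
          have h1 := inS_of_act D (act_hs_inv hf e0 hψ) hIH
          rw [← hψv, hs_inv' hf e0] at h1
          exact h1
  intro v
  exact key _ v rfl

end SpAll

end Cfsg.Agent.Lib.Helper50
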