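import Mathlib
import Cfsg.Prelude.Def_GeometricClasses
import Cfsg.Agent.Lib.Helper97.SpGen
import Cfsg.Agent.Lib.Helper50.SpHeis
import Cfsg.Agent.Lib.Helper50.SpFrame

/-!
# Overgroups of the subfield group in `Sp_2m`: the case of a rational parameter field

Helper library (helper50).  Assume that every short root parameter of `M` lies in `F₀`.  Then a
transvection of `M` whose centre lies in a rational hyperplane has a centre proportional to a
rational vector (`rat_of_perp`), and consequently every element of `M` that is not in general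
position with respect to the rational structure is a scalar multiple of a rational matrix
(`sp_mem_H1_of_not_GP`).
-/

set_option autoImplicit false

namespace Cfsg.Agent.Lib.Helper50

open Matrix Cfsg.Agent.Lib.Helper97

section SpRat

variable {F : Type*} [Field F] {m : ℕ}

local notation "sf" => Cfsg.sympForm m F

/-- A Heisenberg element at a frame vector with a frame direction has a rational parameter. -/
theorem mem_of_heis_frame {F₀ : Subfield F} {M : Subgroup (GL (Fin m ⊕ Fin m) F)}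
    (D : SubfData sf F₀ M) (hm : 6 ≤ m) (hK : ∀ c : F, InK M c → c ∈ F₀)
    {k l : Fin m ⊕ Fin m} (hkl : sidx k ≠ sidx l) {ν c : F}
    (h : Act M (hs sf (Pi.single k 1) (ν • Pi.single l 1) c)) : ν ∈ F₀ := by
  have hf := sympForm_symp (F := F) m
  have hb := hf.bilinear
  obtain ⟨t, htk, htl⟩ := fin_third (show 3 ≤ m by omega) (sidx k) (sidx l)
  have hts : sidx (Sum.inl t : Fin m ⊕ Fin m) ≠ sidx (sbar l) := by rw [sidx_sbar]; exact htl
  have hks : sidx k ≠ sidx (sbar l) := by rw [sidx_sbar]; exact hkl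
  have hkt : sidx k ≠ sidx (Sum.inl t : Fin m ⊕ Fin m) := Ne.symm htk
  have hlt : sidx l ≠ sidx (Sum.inl t : Fin m ⊕ Fin m) := Ne.symm htl
  have hrat : Act M (hs sf (Pi.single (Sum.inl t) 1)
      (stau F (sbar l) • Pi.single (sbar l) 1) 0) :=
    act_hs_rat hf D (ratV_single F₀ _ F₀.one_mem)
      (ratV_smul (stau_mem F₀ _) (ratV_single F₀ _ F₀.one_mem)) F₀.zero_mem
      (by rw [hb.smul_right, sympForm_single_ne hts, mul_zero])
  have h1 := act_hs_conj D.iso hrat h
  have e1 : hs sf (Pi.single (Sum.inl t) 1) (stau F (sbar l) • Pi.single (sbar l) 1) 0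
      (Pi.single k 1) = Pi.single k 1 := by
    rw [hs_apply, hb.smul_right, sympForm_single_ne hks, sympForm_single_ne hkt, mul_zero,
      zero_smul, zero_smul, mul_zero, zero_smul, add_zero, add_zero, add_zero]
  have e2 : hs sf (Pi.single (Sum.inl t) 1) (stau F (sbar l) • Pi.single (sbar l) 1) 0
      (ν • Pi.single l 1) = ν • Pi.single l 1 + ν • Pi.single (Sum.inl t) 1 := by
    rw [hs_apply]
    simp only [hb.smul_left, hb.smul_right]
    rw [sympForm_single (Pi.single l 1) (sbar l), sbar_sbar, Pi.single_eq_same,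
      sympForm_single_ne hlt, mul_one, stau_mul_self, mul_one, mul_zero, zero_smul, mul_zero,
      zero_smul, add_zero, add_zero]
  rw [e1, e2] at h1
  have e4 : sf (Pi.single k 1) (ν • Pi.single l 1) = 0 := by
    rw [hb.smul_right, sympForm_single_ne hkl, mul_zero]
  have e3 : sf (Pi.single k 1) (ν • Pi.single l 1 + ν • Pi.single (Sum.inl t) 1) = 0 := by
    rw [hb.add_right, e4, hb.smul_right, sympForm_single_ne hkt, mul_zero, add_zero]
  have h2 := act_hs_div hf e3 e4 h1 h
  have h3 : Act M (hs sf (Pi.single k 1) (ν • Pi.single (Sum.inl t) 1) 0) := by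
    refine act_hs_eq h2 (add_sub_cancel_left _ _) ?_
    rw [hb.smul_left, hb.add_right, hb.smul_right, hb.smul_right, hf.alternating,
      sympForm_single_ne hlt]
    ring
  exact hK ν (inK_of_one D hm hkt h3)

/-- A transvection of `M` at a frame vector has a rational parameter. -/
theorem mem_of_long {F₀ : Subfield F} {M : Subgroup (GL (Fin m ⊕ Fin m) F)}
    (D : SubfData sf F₀ M) (hm : 6 ≤ m) (hK : ∀ c : F, InK M c → c ∈ F₀)
    (k : Fin m ⊕ Fin m) {c : F} (h : Act M (hs sf (Pi.single k 1) 0 c)) : c ∈ F₀ := by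
  have hf := sympForm_symp (F := F) m
  have hb := hf.bilinear
  obtain ⟨t, htk, -⟩ := fin_third (show 3 ≤ m by omega) (sidx k) (sidx k)
  have hts : sidx (Sum.inl t : Fin m ⊕ Fin m) ≠ sidx (sbar k) := by rw [sidx_sbar]; exact htk
  have hkt : sidx k ≠ sidx (Sum.inl t : Fin m ⊕ Fin m) := Ne.symm htk
  have hrat : Act M (hs sf (Pi.single (Sum.inl t) 1)
      (stau F (sbar k) • Pi.single (sbar k) 1) 0) :=
    act_hs_rat hf D (ratV_single F₀ _ F₀.one_mem)
      (ratV_smul (stau_mem F₀ _) (ratV_single F₀ _ F₀.one_mem)) F₀.zero_mem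
      (by rw [hb.smul_right, sympForm_single_ne hts, mul_zero])
  have h1 := act_hs_conj D.iso hrat h
  have e1 : hs sf (Pi.single (Sum.inl t) 1) (stau F (sbar k) • Pi.single (sbar k) 1) 0
      (Pi.single k 1) = Pi.single k 1 + Pi.single (Sum.inl t) 1 := by
    rw [hs_apply, hb.smul_right, sympForm_single (Pi.single k 1) (sbar k), sbar_sbar,
      Pi.single_eq_same, sympForm_single_ne hkt, mul_one, stau_mul_self, one_smul, zero_smul,
      mul_zero, zero_smul, add_zero, add_zero]
  rw [e1, hs_apply_zero hb] at h1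
  have hyw : sf (Pi.single k 1) (Pi.single (Sum.inl t) 1) = 0 := sympForm_single_ne hkt
  have h2 : Act M (hs sf (Pi.single (Sum.inl t) 1) (c • Pi.single k 1) c) := by
    have h3 := h1.comp (act_hs_inv hf (form_zero_right hb _) h)
    refine h3.congr (fun x => ?_)
    rw [hs_tv_add hf hyw, hs_inv hf (form_zero_right hb _)]
  exact mem_of_heis_frame D hm hK (k := Sum.inl t) (l := k) htk h2

/-- A Heisenberg element at a frame vector with a rational direction has a rational parameter. -/
theorem mem_of_heis_rat {F₀ : Subfield F} {M : Subgroup (GL (Fin m ⊕ Fin m) F)}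
    (D : SubfData sf F₀ M) (hm : 6 ≤ m) (hK : ∀ c : F, InK M c → c ∈ F₀)
    (o : Fin m ⊕ Fin m) {a₀ : Fin m ⊕ Fin m → F} (ha₀ : RatV F₀ a₀) (h0 : a₀ o = 0)
    (h0' : a₀ (sbar o) = 0) (hne : a₀ ≠ 0) {ν c : F}
    (h : Act M (hs sf (Pi.single o 1) (ν • a₀) c)) : ν ∈ F₀ := by
  have hf := sympForm_symp (F := F) m
  have hb := hf.bilinear
  obtain ⟨j, hj⟩ := Function.ne_iff.mp hne
  rw [Pi.zero_apply] at hj
  have hjo : sidx j ≠ sidx o := by
    intro h'
    rcases eq_or_eq_sbar h' with h'' | h''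
    · rw [h''] at hj; exact hj h0
    · rw [h''] at hj; exact hj h0'
  have hos : sidx o ≠ sidx (sbar j) := by rw [sidx_sbar]; exact Ne.symm hjo
  have hκ : sf a₀ (Pi.single (sbar j) 1) = stau F (sbar j) * a₀ j := by
    rw [sympForm_single, sbar_sbar]
  have hκ0 : stau F (sbar j) * a₀ j ≠ 0 := mul_ne_zero (stau_ne_zero _) hj
  have hκmem : stau F (sbar j) * a₀ j ∈ F₀ := F₀.mul_mem (stau_mem F₀ _) (ha₀ j)
  have htz : Act M (hs sf (Pi.single (sbar j) 1) 0 1) :=
    act_hs_rat hf D (ratV_single F₀ _ F₀.one_mem) (ratV_zero F₀) F₀.one_mem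
      (form_zero_right hb _)
  have h1 := act_hs_conj D.iso htz h
  have e1 : hs sf (Pi.single (sbar j) 1) 0 1 (Pi.single o 1) = Pi.single o 1 := by
    rw [hs_tv hb, sympForm_single_ne hos, mul_zero, zero_smul, add_zero]
  have e2 : hs sf (Pi.single (sbar j) 1) 0 1 (ν • a₀) =
      ν • a₀ + (ν * (stau F (sbar j) * a₀ j)) • Pi.single (sbar j) 1 := by
    rw [hs_tv hb, hb.smul_left, hκ, one_mul]
  rw [e1, e2] at h1
  have hoa : sf (Pi.single o 1) a₀ = 0 := by
    rw [sympForm_single_left, h0', mul_zero, neg_zero]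
  have e4 : sf (Pi.single o 1) (ν • a₀) = 0 := by rw [hb.smul_right, hoa, mul_zero]
  have e3 : sf (Pi.single o 1)
      (ν • a₀ + (ν * (stau F (sbar j) * a₀ j)) • Pi.single (sbar j) 1) = 0 := by
    rw [hb.add_right, e4, hb.smul_right, sympForm_single_ne hos, mul_zero, add_zero]
  have h2 := act_hs_div hf e3 e4 h1 h
  have h3 := act_hs_eq h2 (add_sub_cancel_left _ _) rfl
  have h4 := mem_of_heis_frame D hm hK hos h3
  have e5 : ν = (ν * (stau F (sbar j) * a₀ j)) * (stau F (sbar j) * a₀ j)⁻¹ := by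
    rw [mul_assoc, mul_inv_cancel₀ hκ0, mul_one]
  rw [e5]
  exact F₀.mul_mem h4 (F₀.inv_mem hκmem)

/-- A transvection of `M` whose centre is orthogonal to a frame vector has a centre proportional
to a rational vector. -/
theorem rat_of_perp_frame {F₀ : Subfield F} {M : Subgroup (GL (Fin m ⊕ Fin m) F)}
    (D : SubfData sf F₀ M) (hm : 6 ≤ m) (hK : ∀ c : F, InK M c → c ∈ F₀)
    (o : Fin m ⊕ Fin m) {a : Fin m ⊕ Fin m → F} (ha : sf a (Pi.single o 1) = 0)
    (h : Act M (hs sf a 0 1)) :
    ∃ (l : F) (r : Fin m ⊕ Fin m → F), RatV F₀ r ∧ a = l • r := by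
  have hf := sympForm_symp (F := F) m
  have hb := hf.bilinear
  have hao : a (sbar o) = 0 := by
    rw [sympForm_single] at ha
    exact (mul_eq_zero.mp ha).resolve_left (stau_ne_zero o)
  have hoa : sf (Pi.single o 1) a = 0 := by rw [hf.skew, ha, neg_zero]
  by_cases hcase : ∀ j, sidx j ≠ sidx o → a j = 0
  · refine ⟨a o, Pi.single o 1, ratV_single F₀ o F₀.one_mem, ?_⟩
    funext i
    by_cases hi : i = o
    · subst hi; simp
    · rw [Pi.smul_apply, Pi.single_eq_of_ne hi, smul_zero]
      by_cases hi' : sidx i = sidx o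
      · rcases eq_or_eq_sbar hi' with h' | h'
        · exact absurd h' hi
        · rw [h']; exact hao
      · exact hcase i hi'
  · push Not at hcase
    obtain ⟨j, hjo, hj⟩ := hcase
    have hos : sidx o ≠ sidx (sbar j) := by rw [sidx_sbar]; exact Ne.symm hjo
    obtain ⟨μ, hμ⟩ : ∃ μ : F, μ = sf (Pi.single (sbar j) 1) a := ⟨_, rfl⟩
    have hμ0 : μ ≠ 0 := by
      rw [hμ, sympForm_single_left, sbar_sbar]
      exact neg_ne_zero.mpr (mul_ne_zero (stau_ne_zero _) hj)
    -- the basic Heisenberg elements produced by the transvection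
    have S2 : ∀ b' : Fin m ⊕ Fin m → F, RatV F₀ b' → sf (Pi.single o 1) b' = 0 →
        Act M (hs sf (Pi.single o 1) (sf b' a • a) (-(sf b' a) ^ 2)) := by
      intro b' hb' hob'
      have hq := act_hs_rat hf D (ratV_single F₀ o F₀.one_mem) hb' F₀.zero_mem hob'
      have h1 := act_hs_conj D.iso h hq
      have e1 : hs sf a 0 1 (Pi.single o 1) = Pi.single o 1 := by
        rw [hs_tv hb, hoa, mul_zero, zero_smul, add_zero]
      have e2 : hs sf a 0 1 b' = b' + sf b' a • a := by rw [hs_tv hb, one_mul]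
      rw [e1, e2] at h1
      have e3 : sf (Pi.single o 1) (b' + sf b' a • a) = 0 := by
        rw [hb.add_right, hob', hb.smul_right, hoa, mul_zero, add_zero]
      have h2 := act_hs_div hf e3 hob' h1 hq
      refine act_hs_eq h2 (add_sub_cancel_left _ _) ?_
      rw [hb.add_right, hb.smul_right, hf.alternating]
      ring
    have hob : sf (Pi.single o 1) (Pi.single (sbar j) 1) = 0 := sympForm_single_ne hos
    have hS2 := S2 (Pi.single (sbar j) 1) (ratV_single F₀ _ F₀.one_mem) hob
    rw [← hμ] at hS2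
    have hS2n := S2 (-Pi.single (sbar j) 1) (ratV_neg (ratV_single F₀ _ F₀.one_mem))
      (by rw [form_neg_right hb, hob, neg_zero])
    rw [form_neg_left hb, ← hμ] at hS2n
    have eoμa : sf (Pi.single o 1) (μ • a) = 0 := by rw [hb.smul_right, hoa, mul_zero]
    -- the coordinates of `μ • a` outside the plane of `o` are rational
    have S3 : ∀ l, sidx l ≠ sidx o → μ * (stau F l * a (sbar l)) ∈ F₀ := by
      intro l hlo
      have htz : Act M (hs sf (Pi.single l 1) 0 1) :=
        act_hs_rat hf D (ratV_single F₀ _ F₀.one_mem) (ratV_zero F₀) F₀.one_mem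
          (form_zero_right hb _)
      have h1 := act_hs_conj D.iso htz hS2
      have e1 : hs sf (Pi.single l 1) 0 1 (Pi.single o 1) = Pi.single o 1 := by
        rw [hs_tv hb, sympForm_single_ne (Ne.symm hlo), mul_zero, zero_smul, add_zero]
      have e2 : hs sf (Pi.single l 1) 0 1 (μ • a) =
          μ • a + (μ * (stau F l * a (sbar l))) • Pi.single l 1 := by
        rw [hs_tv hb, one_mul, hb.smul_left, sympForm_single]
      rw [e1, e2] at h1
      have e3 : sf (Pi.single o 1) (μ • a + (μ * (stau F l * a (sbar l))) • Pi.single l 1) = 0 := by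
        rw [hb.add_right, eoμa, hb.smul_right, sympForm_single_ne (Ne.symm hlo), mul_zero,
          add_zero]
      have h2 := act_hs_div hf e3 eoμa h1 hS2
      have h3 := act_hs_eq h2 (add_sub_cancel_left _ _) rfl
      exact mem_of_heis_frame D hm hK (Ne.symm hlo) h3
    have hcoord : ∀ i, sidx i ≠ sidx o → μ * a i ∈ F₀ := by
      intro i hio
      have h1 := S3 (sbar i) (by rw [sidx_sbar]; exact hio)
      rw [sbar_sbar] at h1
      have e : μ * a i = stau F (sbar i) * (μ * (stau F (sbar i) * a i)) := by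
        have h2 := stau_mul_self (F := F) (sbar i)
        linear_combination (-(μ * a i)) * h2
      rw [e]
      exact F₀.mul_mem (stau_mem F₀ _) h1
    obtain ⟨a₀, ha₀⟩ : ∃ a₀ : Fin m ⊕ Fin m → F, a₀ = fun i => if i = o then 0 else μ * a i :=
      ⟨_, rfl⟩
    have ha₀i : ∀ i, a₀ i = if i = o then 0 else μ * a i := fun i => by rw [ha₀]
    have ha₀rat : RatV F₀ a₀ := by
      intro i
      rw [ha₀i]
      split_ifs with hi
      · exact F₀.zero_mem
      · by_cases hi' : sidx i = sidx o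
        · rcases eq_or_eq_sbar hi' with h' | h'
          · exact absurd h' hi
          · rw [h', hao, mul_zero]; exact F₀.zero_mem
        · exact hcoord i hi'
    obtain ⟨ν', hν'⟩ : ∃ ν' : F, ν' = μ * a o := ⟨_, rfl⟩
    have hdecomp : μ • a = a₀ + ν' • Pi.single o 1 := by
      funext i
      rw [Pi.add_apply, Pi.smul_apply, Pi.smul_apply, ha₀i]
      by_cases hi : i = o
      · subst hi; rw [if_pos rfl, Pi.single_eq_same, hν', smul_eq_mul, smul_eq_mul, mul_one,
          zero_add]
      · rw [if_neg hi, Pi.single_eq_of_ne hi, smul_zero, add_zero, smul_eq_mul]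
    have ha₀o : a₀ o = 0 := by rw [ha₀i, if_pos rfl]
    have ha₀o' : a₀ (sbar o) = 0 := by rw [ha₀i, if_neg (sbar_ne o), hao, mul_zero]
    have hjne : j ≠ o := by
      intro h'
      apply hjo
      rw [h']
    have ha₀ne : a₀ ≠ 0 := by
      intro h0
      have h1 := congrFun h0 j
      rw [ha₀i, if_neg hjne, Pi.zero_apply] at h1
      rcases mul_eq_zero.mp h1 with h2 | h2
      · exact hμ0 h2
      · exact hj h2
    have hoa₀ : sf (Pi.single o 1) a₀ = 0 := by
      rw [sympForm_single_left, ha₀o', mul_zero, neg_zero]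
    have hX : -μ ^ 2 + 2 * ν' ∈ F₀ := by
      have h1 : Act M (hs sf (Pi.single o 1) a₀ (-μ ^ 2 + 2 * ν')) :=
        (act_hs_eq hS2 hdecomp rfl).congr (fun x => hs_add_self hf ν' _ _ _ x)
      have hq := act_hs_rat hf D (ratV_single F₀ o F₀.one_mem) ha₀rat F₀.zero_mem hoa₀
      have h2 := act_hs_div hf hoa₀ hoa₀ h1 hq
      have h3 : Act M (hs sf (Pi.single o 1) 0 (-μ ^ 2 + 2 * ν')) := by
        refine act_hs_eq h2 (sub_self _) ?_
        rw [hf.alternating]
        ring
      exact mem_of_long D hm hK o h3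
    have hY : -μ ^ 2 - 2 * ν' ∈ F₀ := by
      have hdecomp' : (-μ) • a = -a₀ + (-ν') • Pi.single o 1 := by
        rw [neg_smul, hdecomp, neg_add, neg_smul]
      have h1 : Act M (hs sf (Pi.single o 1) (-a₀) (-(-μ) ^ 2 + 2 * (-ν'))) :=
        (act_hs_eq hS2n hdecomp' rfl).congr (fun x => hs_add_self hf (-ν') _ _ _ x)
      have hoa₀' : sf (Pi.single o 1) (-a₀) = 0 := by rw [form_neg_right hb, hoa₀, neg_zero]
      have hq := act_hs_rat hf D (ratV_single F₀ o F₀.one_mem) (ratV_neg ha₀rat) F₀.zero_mem hoa₀'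
      have h2 := act_hs_div hf hoa₀' hoa₀' h1 hq
      have h3 : Act M (hs sf (Pi.single o 1) 0 (-μ ^ 2 - 2 * ν')) := by
        refine act_hs_eq h2 (sub_self _) ?_
        rw [hf.alternating]
        ring
      exact mem_of_long D hm hK o h3
    have hμ2 : μ ^ 2 ∈ F₀ := by
      by_cases h2 : (2 : F) = 0
      · have e : μ ^ 2 = -(-μ ^ 2 + 2 * ν') := by rw [h2]; ring
        rw [e]; exact F₀.neg_mem hX
      · have e : μ ^ 2 = -((-μ ^ 2 + 2 * ν') + (-μ ^ 2 - 2 * ν')) / 2 := by
          field_simp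
          ring
        rw [e]
        exact F₀.div_mem (F₀.neg_mem (F₀.add_mem hX hY)) (F₀.add_mem F₀.one_mem F₀.one_mem |> fun h => by
          rwa [one_add_one_eq_two] at h)
    have hμi : (μ⁻¹) ^ 2 ∈ F₀ := by rw [inv_pow]; exact F₀.inv_mem hμ2
    have hν'mem : ν' ∈ F₀ := by
      have ea : a = μ⁻¹ • (a₀ + ν' • Pi.single o 1) := by
        rw [← hdecomp, smul_smul, inv_mul_cancel₀ hμ0, one_smul]
      have h1 : Act M (hs sf (a₀ + ν' • Pi.single o 1) 0 ((μ⁻¹) ^ 2)) := by
        have h1' := act_hs_eq3 h ea rfl rfl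
        exact act_hs_eq (h1'.congr (fun x => hs_smul_left hb μ⁻¹ _ _ _ x)) (smul_zero _)
          (one_mul _)
      have hyw : sf a₀ (ν' • Pi.single o 1) = 0 := by
        rw [hb.smul_right, hf.skew, hoa₀, neg_zero, mul_zero]
      have hq : Act M (hs sf a₀ 0 ((μ⁻¹) ^ 2)) :=
        act_hs_rat hf D ha₀rat (ratV_zero F₀) hμi (form_zero_right hb _)
      have h2 : Act M (hs sf (ν' • Pi.single o 1) ((μ⁻¹) ^ 2 • a₀) ((μ⁻¹) ^ 2)) := by
        have h3 := h1.comp (act_hs_inv hf (form_zero_right hb _) hq)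
        refine h3.congr (fun x => ?_)
        rw [hs_tv_add hf hyw, hs_inv hf (form_zero_right hb _)]
      have h4 : Act M (hs sf (Pi.single o 1) (ν' • ((μ⁻¹) ^ 2 • a₀)) ((μ⁻¹) ^ 2 * ν' ^ 2)) :=
        h2.congr (fun x => hs_smul_left hb ν' _ _ _ x)
      have h5 : Act M (hs sf (Pi.single o 1) ((ν' * (μ⁻¹) ^ 2) • a₀) ((μ⁻¹) ^ 2 * ν' ^ 2)) :=
        act_hs_eq h4 (smul_smul _ _ _) rfl
      have h6 := mem_of_heis_rat D hm hK o ha₀rat ha₀o ha₀o' ha₀ne h5
      have e : ν' = (ν' * (μ⁻¹) ^ 2) * μ ^ 2 := by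
        field_simp
      rw [e]
      exact F₀.mul_mem h6 hμ2
    refine ⟨μ⁻¹, a₀ + ν' • Pi.single o 1,
      ratV_add ha₀rat (ratV_smul hν'mem (ratV_single F₀ o F₀.one_mem)), ?_⟩
    rw [← hdecomp, smul_smul, inv_mul_cancel₀ hμ0, one_smul]

end SpRat

end Cfsg.Agent.Lib.Helper50
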