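import Mathlib
import Cfsg.Prelude.Def_GeometricClasses
import Cfsg.Agent.Lib.Helper97.SpGen
import Cfsg.Agent.Lib.Helper50.SpHeis
import Cfsg.Agent.Lib.Helper50.SpFrame
import Cfsg.Agent.Lib.Helper50.SpRat

/-!
# Overgroups of the subfield group in `Sp_2m`: elements not in general position

Helper library (helper50).  Assume that every short root parameter of `M` lies in `F₀`.  Using
the transitivity of the rational symplectic transvections on rational vectors, `rat_of_perp`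
holds for every rational hyperplane; an element of `M` mapping one rational point to a rational
point maps all of them to rational points and is a scalar multiple of a rational matrix.
-/

set_option autoImplicit false

namespace Cfsg.Agent.Lib.Helper50

open Matrix Cfsg.Agent.Lib.Helper97

section SpGP

variable {F : Type*} [Field F] {m : ℕ}

local notation "sf" => Cfsg.sympForm m F

theorem ratV_rho {F₀ : Subfield F} {w : Fin m ⊕ Fin m → F} (hw : RatV F₀ w) :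
    RatV F₀ (rho sf w) := by
  rw [rho_sympForm]
  exact ratM_mulVec (ratM_J F₀) hw

/-- A rational transvection of `M` moving `u` to `v` when `f u v ≠ 0`. -/
theorem exists_rat_tv {F₀ : Subfield F} {M : Subgroup (GL (Fin m ⊕ Fin m) F)}
    (D : SubfData sf F₀ M) {u v : Fin m ⊕ Fin m → F} (hu : RatV F₀ u) (hv : RatV F₀ v)
    (huv : sf u v ≠ 0) :
    ∃ g : GL (Fin m ⊕ Fin m) F, g ∈ M ∧ RatM F₀ (g : Matrix (Fin m ⊕ Fin m) (Fin m ⊕ Fin m) F) ∧
      (g : Matrix (Fin m ⊕ Fin m) (Fin m ⊕ Fin m) F) *ᵥ u = v := by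
  have hf := sympForm_symp (F := F) m
  have hb := hf.bilinear
  have hc : (sf u v)⁻¹ ∈ F₀ := F₀.inv_mem (sympForm_rat hu hv)
  have hrat : RatM F₀ ((tvG (u - v) ((sf u v)⁻¹ • rho sf (u - v)) (symp_dot0 hf _ _) :
      GL (Fin m ⊕ Fin m) F) : Matrix (Fin m ⊕ Fin m) (Fin m ⊕ Fin m) F) := by
    rw [tvG_val]
    exact ratM_tv (ratV_sub hu hv) (ratV_smul hc (ratV_rho (ratV_sub hu hv)))
  refine ⟨tvG (u - v) ((sf u v)⁻¹ • rho sf (u - v)) (symp_dot0 hf _ _),
    D.rat _ (fun x y => stv_pres hf _ _ x y) hrat, hrat, ?_⟩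
  rw [stv_mulVec hf, form_sub_right hb, hf.alternating, zero_sub, mul_neg, inv_mul_cancel₀ huv]
  module

/-- The rational elements of `M` are transitive on non-zero rational vectors. -/
theorem exists_rat_move {F₀ : Subfield F} {M : Subgroup (GL (Fin m ⊕ Fin m) F)}
    (D : SubfData sf F₀ M) (o : Fin m ⊕ Fin m) {v : Fin m ⊕ Fin m → F} (hv : RatV F₀ v)
    (hv0 : v ≠ 0) :
    ∃ g : GL (Fin m ⊕ Fin m) F, g ∈ M ∧ RatM F₀ (g : Matrix (Fin m ⊕ Fin m) (Fin m ⊕ Fin m) F) ∧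
      (g : Matrix (Fin m ⊕ Fin m) (Fin m ⊕ Fin m) F) *ᵥ Pi.single o 1 = v := by
  have hf := sympForm_symp (F := F) m
  have hb := hf.bilinear
  by_cases h1 : sf (Pi.single o 1) v ≠ 0
  · exact exists_rat_tv D (ratV_single F₀ o F₀.one_mem) hv h1
  · push Not at h1
    obtain ⟨j, hj⟩ := Function.ne_iff.mp hv0
    rw [Pi.zero_apply] at hj
    have hz1 : sf (Pi.single o 1) (Pi.single (sbar o) 1) ≠ 0 := by
      rw [sympForm_single, sbar_sbar, Pi.single_eq_same, mul_one]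
      exact stau_ne_zero _
    have hz2 : sf (Pi.single (sbar j) 1) v ≠ 0 := by
      rw [sympForm_single_left, sbar_sbar]
      exact neg_ne_zero.mpr (mul_ne_zero (stau_ne_zero _) hj)
    have hz : ∃ z : Fin m ⊕ Fin m → F, RatV F₀ z ∧ sf (Pi.single o 1) z ≠ 0 ∧ sf z v ≠ 0 := by
      by_cases ha : sf (Pi.single (sbar o) 1) v ≠ 0
      · exact ⟨Pi.single (sbar o) 1, ratV_single F₀ _ F₀.one_mem, hz1, ha⟩
      · push Not at ha
        by_cases hb2 : sf (Pi.single o 1) (Pi.single (sbar j) 1) ≠ 0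
        · exact ⟨Pi.single (sbar j) 1, ratV_single F₀ _ F₀.one_mem, hb2, hz2⟩
        · push Not at hb2
          refine ⟨Pi.single (sbar o) 1 + Pi.single (sbar j) 1,
            ratV_add (ratV_single F₀ _ F₀.one_mem) (ratV_single F₀ _ F₀.one_mem), ?_, ?_⟩
          · rw [hb.add_right, hb2, add_zero]; exact hz1
          · rw [hb.add_left, ha, zero_add]; exact hz2
    obtain ⟨z, hzr, hz1', hz2'⟩ := hz
    obtain ⟨g1, hg1M, hg1r, hg1⟩ := exists_rat_tv D (ratV_single F₀ o F₀.one_mem) hzr hz1'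
    obtain ⟨g2, hg2M, hg2r, hg2⟩ := exists_rat_tv D hzr hv hz2'
    refine ⟨g2 * g1, M.mul_mem hg2M hg1M, ?_, ?_⟩
    · rw [Units.val_mul]; exact ratM_mul hg2r hg1r
    · rw [Units.val_mul, ← Matrix.mulVec_mulVec, hg1, hg2]

/-- A transvection of `M` whose centre lies in a rational hyperplane has a centre proportional to
a rational vector. -/
theorem rat_of_perp {F₀ : Subfield F} {M : Subgroup (GL (Fin m ⊕ Fin m) F)}
    (D : SubfData sf F₀ M) (hm : 6 ≤ m) (hK : ∀ c : F, InK M c → c ∈ F₀)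
    {w' a : Fin m ⊕ Fin m → F} (hw' : RatV F₀ w') (hw'0 : w' ≠ 0) (ha : sf a w' = 0)
    (h : Act M (hs sf a 0 1)) :
    ∃ (l : F) (r : Fin m ⊕ Fin m → F), RatV F₀ r ∧ a = l • r := by
  obtain ⟨g, hgM, hgr, hgw⟩ := exists_rat_move D (Sum.inl ⟨0, by omega⟩) hw' hw'0
  have hginv : Act M (fun x => ((g⁻¹ : GL (Fin m ⊕ Fin m) F) :
      Matrix (Fin m ⊕ Fin m) (Fin m ⊕ Fin m) F) *ᵥ x) := act_mulVec (M.inv_mem hgM)
  have h1 := act_hs_conj D.iso hginv h
  simp only [Matrix.mulVec_zero] at h1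
  have e : sf (((g⁻¹ : GL (Fin m ⊕ Fin m) F) : Matrix (Fin m ⊕ Fin m) (Fin m ⊕ Fin m) F) *ᵥ a)
      (Pi.single (Sum.inl ⟨0, by omega⟩) 1) = 0 := by
    have h2 := D.iso g⁻¹ (M.inv_mem hgM) a w'
    rw [← hgw, gl_inv_mulVec, hgw, ha] at h2
    exact h2
  obtain ⟨l, r, hr, hlr⟩ := rat_of_perp_frame D hm hK _ e h1
  refine ⟨l, (g : Matrix (Fin m ⊕ Fin m) (Fin m ⊕ Fin m) F) *ᵥ r, ratM_mulVec hgr hr, ?_⟩
  rw [← Matrix.mulVec_smul, ← hlr, gl_mulVec_inv]

/-- If `g ∈ M` maps the rational point `z` to a rational point, it maps every rational point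
orthogonal to `z` to a rational point. -/
theorem rat_image_of_perp {F₀ : Subfield F} {M : Subgroup (GL (Fin m ⊕ Fin m) F)}
    (D : SubfData sf F₀ M) (hm : 6 ≤ m) (hK : ∀ c : F, InK M c → c ∈ F₀)
    {g : GL (Fin m ⊕ Fin m) F} (hg : g ∈ M) {z x : Fin m ⊕ Fin m → F} (hz0 : z ≠ 0)
    (hRz : ∃ (l : F) (r : Fin m ⊕ Fin m → F), RatV F₀ r ∧
      (g : Matrix (Fin m ⊕ Fin m) (Fin m ⊕ Fin m) F) *ᵥ z = l • r)
    (hx : RatV F₀ x) (hxz : sf x z = 0) :
    ∃ (l : F) (r : Fin m ⊕ Fin m → F), RatV F₀ r ∧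
      (g : Matrix (Fin m ⊕ Fin m) (Fin m ⊕ Fin m) F) *ᵥ x = l • r := by
  have hf := sympForm_symp (F := F) m
  have hb := hf.bilinear
  obtain ⟨l, r, hr, hlr⟩ := hRz
  have hgz0 : (g : Matrix (Fin m ⊕ Fin m) (Fin m ⊕ Fin m) F) *ᵥ z ≠ 0 := by
    intro h0
    apply hz0
    have h1 := gl_inv_mulVec g z
    rw [h0, Matrix.mulVec_zero] at h1
    exact h1.symm
  have hl0 : l ≠ 0 := by
    rintro rfl
    rw [zero_smul] at hlr
    exact hgz0 hlr
  have hr0 : r ≠ 0 := by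
    rintro rfl
    rw [smul_zero] at hlr
    exact hgz0 hlr
  have e : sf ((g : Matrix (Fin m ⊕ Fin m) (Fin m ⊕ Fin m) F) *ᵥ x) r = 0 := by
    have h1 := D.iso g hg x z
    rw [hlr, hb.smul_right, hxz] at h1
    exact (mul_eq_zero.mp h1).resolve_left hl0
  have hq : Act M (hs sf x 0 1) :=
    act_hs_rat hf D hx (ratV_zero F₀) F₀.one_mem (form_zero_right hb _)
  have h1 := act_hs_conj D.iso (act_mulVec hg) hq
  simp only [Matrix.mulVec_zero] at h1
  exact rat_of_perp D hm hK hr hr0 e h1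

theorem single_ne_zero' (k : Fin m ⊕ Fin m) : (Pi.single k (1 : F) : Fin m ⊕ Fin m → F) ≠ 0 := by
  intro h
  have h1 := congrFun h k
  rw [Pi.single_eq_same, Pi.zero_apply] at h1
  exact one_ne_zero h1

/-- An element of `M` mapping a rational frame point to a rational point is a scalar multiple of
a rational matrix. -/
theorem mem_H1_of_rat_image {F₀ : Subfield F} {M : Subgroup (GL (Fin m ⊕ Fin m) F)}
    (D : SubfData sf F₀ M) (hm : 6 ≤ m) (hK : ∀ c : F, InK M c → c ∈ F₀)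
    {g : GL (Fin m ⊕ Fin m) F} (hg : g ∈ M) (i₀ : Fin m)
    (hR : ∃ (l : F) (r : Fin m ⊕ Fin m → F), RatV F₀ r ∧
      (g : Matrix (Fin m ⊕ Fin m) (Fin m ⊕ Fin m) F) *ᵥ Pi.single (Sum.inl i₀) 1 = l • r) :
    g ∈ H1 (Fin m ⊕ Fin m) F₀ := by
  have hf := sympForm_symp (F := F) m
  have hb := hf.bilinear
  have hA : ∀ t : Fin m, ∃ (l : F) (r : Fin m ⊕ Fin m → F), RatV F₀ r ∧
      (g : Matrix (Fin m ⊕ Fin m) (Fin m ⊕ Fin m) F) *ᵥ Pi.single (Sum.inl t) 1 = l • r := by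
    intro t
    refine rat_image_of_perp D hm hK hg (single_ne_zero' (Sum.inl i₀)) hR
      (ratV_single F₀ _ F₀.one_mem) ?_
    rw [sympForm_single]
    simp [sbar]
  have hB : ∀ x : Fin m ⊕ Fin m → F, RatV F₀ x → (∃ t : Fin m, x (Sum.inr t) = 0) →
      ∃ (l : F) (r : Fin m ⊕ Fin m → F), RatV F₀ r ∧
        (g : Matrix (Fin m ⊕ Fin m) (Fin m ⊕ Fin m) F) *ᵥ x = l • r := by
    rintro x hx ⟨t, ht⟩
    refine rat_image_of_perp D hm hK hg (single_ne_zero' (Sum.inl t)) (hA t) hx ?_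
    rw [sympForm_single]
    simp [sbar, ht]
  have hinr : ∀ (j : Fin m ⊕ Fin m) (t : Fin m), t ≠ sidx j → Sum.inr t ≠ j := by
    intro j t ht h
    apply ht
    rw [← h]
    rfl
  have hC1 : ∀ j : Fin m ⊕ Fin m, ∃ (l : F) (r : Fin m ⊕ Fin m → F), RatV F₀ r ∧
      (g : Matrix (Fin m ⊕ Fin m) (Fin m ⊕ Fin m) F) *ᵥ Pi.single j 1 = l • r := by
    intro j
    obtain ⟨t, ht, -⟩ := fin_third (show 3 ≤ m by omega) (sidx j) (sidx j)
    exact hB _ (ratV_single F₀ _ F₀.one_mem) ⟨t, Pi.single_eq_of_ne (hinr j t ht) 1⟩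
  have hC2 : ∀ j j' : Fin m ⊕ Fin m, ∃ (l : F) (r : Fin m ⊕ Fin m → F), RatV F₀ r ∧
      (g : Matrix (Fin m ⊕ Fin m) (Fin m ⊕ Fin m) F) *ᵥ (Pi.single j 1 + Pi.single j' 1) =
        l • r := by
    intro j j'
    obtain ⟨t, ht, ht'⟩ := fin_third (show 3 ≤ m by omega) (sidx j) (sidx j')
    refine hB _ (ratV_add (ratV_single F₀ _ F₀.one_mem) (ratV_single F₀ _ F₀.one_mem)) ⟨t, ?_⟩
    rw [Pi.add_apply, Pi.single_eq_of_ne (hinr j t ht), Pi.single_eq_of_ne (hinr j' t ht'),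
      add_zero]
  choose lam r hr hlr using hC1
  -- comparison of the scalars through a sum of two frame vectors
  have hsub : ∀ j j' : Fin m ⊕ Fin m, sidx j ≠ sidx j' → ∀ (l2 : F) (r2 : Fin m ⊕ Fin m → F),
      RatV F₀ r2 → (g : Matrix (Fin m ⊕ Fin m) (Fin m ⊕ Fin m) F) *ᵥ
        (Pi.single j 1 + Pi.single j' 1) = l2 • r2 →
      ∃ q : F, q ∈ F₀ ∧ q ≠ 0 ∧ lam j = q * l2 := by
    intro j j' hjj' l2 r2 hr2 hl2
    have hj's : sidx j' ≠ sidx (sbar j) := by rw [sidx_sbar]; exact Ne.symm hjj'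
    have h1 := D.iso g hg (Pi.single j 1) (Pi.single (sbar j) 1)
    rw [hlr j, hlr (sbar j), hb.smul_left, hb.smul_right, sympForm_single (Pi.single j 1),
      sbar_sbar, Pi.single_eq_same, mul_one] at h1
    have h2 := D.iso g hg (Pi.single j 1 + Pi.single j' 1) (Pi.single (sbar j) 1)
    rw [hl2, hlr (sbar j), hb.smul_left, hb.smul_right, hb.add_left,
      sympForm_single (Pi.single j 1), sbar_sbar, Pi.single_eq_same, mul_one,
      sympForm_single_ne hj's, add_zero] at h2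
    have hτ : stau F (sbar j) ≠ 0 := stau_ne_zero _
    have hA0 : sf (r j) (r (sbar j)) ≠ 0 := by
      intro h0
      rw [h0, mul_zero, mul_zero] at h1
      exact hτ h1.symm
    have hlam' : lam (sbar j) ≠ 0 := by
      intro h0
      rw [h0, zero_mul, mul_zero] at h1
      exact hτ h1.symm
    have hB0 : sf r2 (r (sbar j)) ≠ 0 := by
      intro h0
      rw [h0, mul_zero, mul_zero] at h2
      exact hτ h2.symm
    have hl20 : l2 ≠ 0 := by
      intro h0
      rw [h0, zero_mul] at h2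
      exact hτ h2.symm
    have key : lam j * sf (r j) (r (sbar j)) = l2 * sf r2 (r (sbar j)) := by
      apply mul_left_cancel₀ hlam'
      linear_combination h1 - h2
    refine ⟨sf r2 (r (sbar j)) / sf (r j) (r (sbar j)),
      F₀.div_mem (sympForm_rat hr2 (hr _)) (sympForm_rat (hr _) (hr _)),
      div_ne_zero hB0 hA0, ?_⟩
    field_simp
    linear_combination key
  have hratio : ∀ j j' : Fin m ⊕ Fin m, sidx j ≠ sidx j' → lam j / lam j' ∈ F₀ := by
    intro j j' hjj'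
    obtain ⟨l2, r2, hr2, hl2⟩ := hC2 j j'
    obtain ⟨q1, hq1, hq10, e1⟩ := hsub j j' hjj' l2 r2 hr2 hl2
    obtain ⟨q2, hq2, hq20, e2⟩ := hsub j' j (Ne.symm hjj') l2 r2 hr2 (by rw [add_comm]; exact hl2)
    have hl20 : l2 ≠ 0 := by
      intro h0
      have h3 := hlr j
      rw [e1, h0, mul_zero, zero_smul] at h3
      have h4 := gl_inv_mulVec g (Pi.single j 1)
      rw [h3, Matrix.mulVec_zero] at h4
      exact single_ne_zero' j h4.symm
    have e : lam j / lam j' = q1 / q2 := by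
      rw [e1, e2]
      field_simp
    rw [e]
    exact F₀.div_mem hq1 hq2
  have hlam0 : ∀ j, lam j ≠ 0 := by
    intro j h0
    have h3 := hlr j
    rw [h0, zero_smul] at h3
    have h4 := gl_inv_mulVec g (Pi.single j 1)
    rw [h3, Matrix.mulVec_zero] at h4
    exact single_ne_zero' j h4.symm
  have hall : ∀ j : Fin m ⊕ Fin m, lam j / lam (Sum.inl i₀) ∈ F₀ := by
    intro j
    by_cases hj : sidx j = sidx (Sum.inl i₀ : Fin m ⊕ Fin m)
    · obtain ⟨t, ht, -⟩ := fin_third (show 3 ≤ m by omega) (sidx j) (sidx j)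
      have h1 : lam j / lam (Sum.inl t) ∈ F₀ := hratio j (Sum.inl t) (Ne.symm ht)
      have h2 : lam (Sum.inl t) / lam (Sum.inl i₀) ∈ F₀ :=
        hratio (Sum.inl t) (Sum.inl i₀) (by rw [← hj]; exact ht)
      have e : lam j / lam (Sum.inl i₀) =
          (lam j / lam (Sum.inl t)) * (lam (Sum.inl t) / lam (Sum.inl i₀)) := by
        have := hlam0 (Sum.inl t)
        have := hlam0 (Sum.inl i₀)
        field_simp
      rw [e]
      exact F₀.mul_mem h1 h2
    · exact hratio j (Sum.inl i₀) hj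
  refine mem_H1_of F₀ g (lam (Sum.inl i₀)) (hlam0 _)
    (Matrix.of (fun i j => (lam j / lam (Sum.inl i₀)) * r j i)) ?_ ?_
  · intro i j
    exact F₀.mul_mem (hall j) (hr j i)
  · ext i j
    have h1 := congrFun (hlr j) i
    rw [Matrix.mulVec_single_one, Matrix.col_apply] at h1
    rw [h1, Matrix.smul_apply, Matrix.of_apply, Pi.smul_apply, smul_eq_mul, smul_eq_mul]
    have := hlam0 (Sum.inl i₀)
    field_simp

/-- If all short root parameters of `M` are rational, an element of `M` that is not in general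
position is a scalar multiple of a rational matrix. -/
theorem sp_mem_H1_of_not_GP {F₀ : Subfield F} {M : Subgroup (GL (Fin m ⊕ Fin m) F)}
    (D : SubfData sf F₀ M) (hm : 6 ≤ m) (hK : ∀ c : F, InK M c → c ∈ F₀)
    (g : GL (Fin m ⊕ Fin m) F) (hg : g ∈ M) (hGP : ¬ GP F₀ g) :
    g ∈ H1 (Fin m ⊕ Fin m) F₀ := by
  have hf := sympForm_symp (F := F) m
  have hb := hf.bilinear
  unfold GP at hGP
  push Not at hGP
  obtain ⟨v, φ, hv, hφ, hv0, hφ0, h0⟩ := hGP
  obtain ⟨w', hw'⟩ : ∃ w' : Fin m ⊕ Fin m → F, w' = -(Matrix.J (Fin m) F *ᵥ φ) := ⟨_, rfl⟩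
  have hw'r : RatV F₀ w' := by
    rw [hw']
    exact ratV_neg (ratM_mulVec (ratM_J F₀) hφ)
  have hJ : Matrix.J (Fin m) F *ᵥ w' = φ := by
    rw [hw', Matrix.mulVec_neg, Matrix.mulVec_mulVec, Matrix.J_squared, Matrix.neg_mulVec,
      Matrix.one_mulVec, neg_neg]
  have hw'0 : w' ≠ 0 := by
    intro h
    rw [h, Matrix.mulVec_zero] at hJ
    exact hφ0 hJ.symm
  have hform : ∀ x : Fin m ⊕ Fin m → F, sf x w' = φ ⬝ᵥ x := by
    intro x
    show x ⬝ᵥ (Matrix.J (Fin m) F *ᵥ w') = _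
    rw [hJ, dotProduct_comm]
  obtain ⟨g1, hg1M, hg1r, hg1⟩ := exists_rat_move D (Sum.inl ⟨0, by omega⟩) hv hv0
  have hgg : g * g1 ∈ M := M.mul_mem hg hg1M
  have hval : ((g * g1 : GL (Fin m ⊕ Fin m) F) : Matrix (Fin m ⊕ Fin m) (Fin m ⊕ Fin m) F) *ᵥ
      Pi.single (Sum.inl ⟨0, by omega⟩) 1 =
      (g : Matrix (Fin m ⊕ Fin m) (Fin m ⊕ Fin m) F) *ᵥ v := by
    rw [Units.val_mul, ← Matrix.mulVec_mulVec, hg1]
  have hq : Act M (hs sf (Pi.single (Sum.inl ⟨0, by omega⟩) 1) 0 1) :=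
    act_hs_rat hf D (ratV_single F₀ _ F₀.one_mem) (ratV_zero F₀) F₀.one_mem
      (form_zero_right hb _)
  have h1 := act_hs_conj D.iso (act_mulVec hgg) hq
  simp only [Matrix.mulVec_zero] at h1
  rw [hval] at h1
  have hR := rat_of_perp D hm hK hw'r hw'0 (by rw [hform]; exact h0) h1
  have hmem := mem_H1_of_rat_image D hm hK hgg ⟨0, by omega⟩ (by rw [hval]; exact hR)
  have hg1H : g1 ∈ H1 (Fin m ⊕ Fin m) F₀ :=
    mem_H1_of F₀ g1 1 one_ne_zero _ hg1r (by rw [one_smul])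
  have e : g = (g * g1) * g1⁻¹ := by group
  rw [e]
  exact (H1 (Fin m ⊕ Fin m) F₀).mul_mem hmem ((H1 (Fin m ⊕ Fin m) F₀).inv_mem hg1H)

end SpGP

end Cfsg.Agent.Lib.Helper50
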