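import Mathlib
import Cfsg.Prelude.Def_GeometricClasses
import Cfsg.Agent.Lib.Helper18.Darboux
import Cfsg.Agent.Lib.Helper97.SpGen
import Cfsg.Agent.Lib.Helper97.SpOver2
import Cfsg.Agent.Lib.Helper50.SpHeis
import Cfsg.Agent.Lib.Helper50.SpFrame
import Cfsg.Agent.Lib.Helper50.SpAll
import Cfsg.Agent.Lib.Helper50.SpRat
import Cfsg.Agent.Lib.Helper50.SpGP
import Cfsg.Agent.Lib.Helper50.SpInv

/-!
# Subfield subgroups of `Sp_2m` are maximal

Helper library (helper50).  The subfield group `N_{Sp_2m(F)}(Sp_2m(F₀))` (for `F` of prime degree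
over `F₀` and `m ≥ 7`) is maximal in `Sp_2m(F)`: an overgroup has parameter field `F₀` or `F`;
in the first case the dihedral argument (`le_H1_of_involutions`) shows it is the subfield group,
in the second it contains all symplectic transvections.  A general rational structure is reduced
to the standard one by a Darboux basis over `F₀`.
-/

set_option autoImplicit false

namespace Cfsg.Agent.Lib.Helper50

open Matrix Cfsg.Agent.Lib.Helper97

section SpMax

variable {F : Type*} [Field F] {m : ℕ}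

local notation "sf" => Cfsg.sympForm m F

theorem sympForm_eq_sum (x v : Fin m ⊕ Fin m → F) :
    sf x v = ∑ k, v k * (stau F k * x (sbar k)) := by
  have hb := (sympForm_symp (F := F) m).bilinear
  have e : ∀ i : Fin m ⊕ Fin m, (fun j => if i = j then (1 : F) else 0) = Pi.single i 1 := by
    intro i
    funext j
    rw [Pi.single_apply]
    simp only [eq_comm]
  rw [← bil_apply hb, LinearMap.pi_apply_eq_sum_univ (bil hb x) v]
  apply Finset.sum_congr rfl
  intro i _
  rw [e, bil_apply, sympForm_single, smul_eq_mul]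

/-- The diagonal sign matrix with `-1` on the hyperbolic planes selected by `T`. -/
def spSign (F : Type*) [Field F] {m : ℕ} (T : Fin m → Prop) [DecidablePred T] :
    Matrix (Fin m ⊕ Fin m) (Fin m ⊕ Fin m) F :=
  Matrix.diagonal (fun k => if T (sidx k) then (-1 : F) else 1)

theorem spSign_mul_self (T : Fin m → Prop) [DecidablePred T] :
    spSign F T * spSign F T = 1 := by
  rw [spSign, Matrix.diagonal_mul_diagonal, ← Matrix.diagonal_one]
  congr 1
  funext k
  split_ifs <;> simp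

theorem spSign_mulVec (T : Fin m → Prop) [DecidablePred T] (y : Fin m ⊕ Fin m → F)
    (k : Fin m ⊕ Fin m) :
    (spSign F T *ᵥ y) k = (if T (sidx k) then (-1 : F) else 1) * y k := by
  rw [spSign, Matrix.mulVec_diagonal]

theorem spSign_iso (T : Fin m → Prop) [DecidablePred T] (x y : Fin m ⊕ Fin m → F) :
    sf (spSign F T *ᵥ x) (spSign F T *ᵥ y) = sf x y := by
  rw [sympForm_eq_sum, sympForm_eq_sum]
  apply Finset.sum_congr rfl
  intro k _
  rw [spSign_mulVec, spSign_mulVec, sidx_sbar]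
  split_ifs <;> ring

theorem ratM_spSign (F₀ : Subfield F) (T : Fin m → Prop) [DecidablePred T] :
    RatM F₀ (spSign F T) := by
  intro i j
  rw [spSign, Matrix.diagonal_apply]
  split_ifs
  exacts [F₀.neg_mem F₀.one_mem, F₀.one_mem, F₀.zero_mem]

/-- The sign matrix as an element of `GL`. -/
def spSignG (F : Type*) [Field F] {m : ℕ} (T : Fin m → Prop) [DecidablePred T] :
    GL (Fin m ⊕ Fin m) F :=
  ⟨spSign F T, spSign F T, spSign_mul_self T, spSign_mul_self T⟩

theorem spSignG_val (T : Fin m → Prop) [DecidablePred T] :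
    ((spSignG F T : GL (Fin m ⊕ Fin m) F) : Matrix (Fin m ⊕ Fin m) (Fin m ⊕ Fin m) F) =
      spSign F T := rfl

theorem spSignG_mem {F₀ : Subfield F} {M : Subgroup (GL (Fin m ⊕ Fin m) F)}
    (D : SubfData sf F₀ M) (T : Fin m → Prop) [DecidablePred T] : spSignG F T ∈ M :=
  D.rat (spSignG F T) (spSign_iso T) (ratM_spSign F₀ T)

theorem fin_seven_nodup {m : ℕ} (hm : 5 ≤ m) :
    ([Sum.inl ⟨0, by omega⟩, Sum.inr ⟨0, by omega⟩, Sum.inl ⟨1, by omega⟩,
      Sum.inr ⟨1, by omega⟩, Sum.inl ⟨2, by omega⟩, Sum.inl ⟨3, by omega⟩,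
      Sum.inl ⟨4, by omega⟩] : List (Fin m ⊕ Fin m)).Nodup := by
  simp [Fin.ext_iff]

variable [Fintype F]

/-- The odd characteristic instance of the dihedral argument in `Sp_2m`. -/
theorem sp_le_H1_odd (hm : 7 ≤ m) {F₀ : Subfield F} {M : Subgroup (GL (Fin m ⊕ Fin m) F)}
    (D : SubfData sf F₀ M)
    (hGPl : ∀ g ∈ M, ¬ GP F₀ g → g ∈ H1 (Fin m ⊕ Fin m) F₀)
    (hsq : ∀ c : F, c ^ 2 ∈ F₀ → c ∈ F₀) (h2 : (2 : F) ≠ 0) :
    M ≤ H1 (Fin m ⊕ Fin m) F₀ := by
  have h0 : 0 < m := by omega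
  have h1 : 1 < m := by omega
  have h2' : 2 < m := by omega
  have h3 : 3 < m := by omega
  have h4 : 4 < m := by omega
  have hm5 : 5 ≤ m := by omega
  refine le_H1_odd_gen (Sum.inl ⟨0, h0⟩) (Sum.inr ⟨0, h0⟩) (Sum.inl ⟨1, h1⟩)
    (Sum.inr ⟨1, h1⟩) (Sum.inl ⟨2, h2'⟩) (Sum.inl ⟨3, h3⟩)
    (Sum.inl ⟨4, h4⟩) (fin_seven_nodup hm5)
    (spSignG F (fun i : Fin m => i = ⟨0, h0⟩ ∨ i = ⟨1, h1⟩))
    (spSignG F (fun i : Fin m => i = ⟨0, h0⟩)) ?_ ?_
    (spSignG_mem D _) (spSignG_mem D _) hGPl hsq h2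
  · rw [spSignG_val]
    unfold spSign
    congr 1
    funext k
    rcases k with i | i <;> simp [sidx] <;> congr
  · rw [spSignG_val]
    unfold spSign
    congr 1
    funext k
    rcases k with i | i <;> simp [sidx] <;> congr

/-- The characteristic two instance of the dihedral argument in `Sp_2m`. -/
theorem sp_le_H1_two (hm : 7 ≤ m) {F₀ : Subfield F} {M : Subgroup (GL (Fin m ⊕ Fin m) F)}
    (D : SubfData sf F₀ M)
    (hGPl : ∀ g ∈ M, ¬ GP F₀ g → g ∈ H1 (Fin m ⊕ Fin m) F₀)
    (hsq : ∀ c : F, c ^ 2 ∈ F₀ → c ∈ F₀) (h2 : (2 : F) = 0) :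
    M ≤ H1 (Fin m ⊕ Fin m) F₀ := by
  have hf := sympForm_symp (F := F) m
  have hb := hf.bilinear
  have key : ∀ p : Fin m, ∀ t : GL (Fin m ⊕ Fin m) F,
      (t : Matrix (Fin m ⊕ Fin m) (Fin m ⊕ Fin m) F) =
        tv (Pi.single (Sum.inl p) 1) (Pi.single (Sum.inr p) 1) → t ∈ M := by
    intro p t ht
    obtain ⟨g, hgM, hgx⟩ := act_hs_rat hf D (ratV_single F₀ (Sum.inl p) F₀.one_mem)
      (ratV_zero F₀) F₀.one_mem (form_zero_right hb _)
    have e : t = g := by
      apply Units.ext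
      apply ext_mulVec_single
      intro k
      rw [hgx, ht, tv_mulVec, hs_tv hb, sympForm_single, single_dotProduct, one_mul, one_mul]
      simp [stau, sbar]
    rw [e]
    exact hgM
  have h0 : 0 < m := by omega
  have h1 : 1 < m := by omega
  have h2' : 2 < m := by omega
  have h3 : 3 < m := by omega
  have h4 : 4 < m := by omega
  have hm5 : 5 ≤ m := by omega
  exact le_H1_two_gen (Sum.inl ⟨0, h0⟩) (Sum.inr ⟨0, h0⟩) (Sum.inl ⟨1, h1⟩)
    (Sum.inr ⟨1, h1⟩) (Sum.inl ⟨2, h2'⟩) (Sum.inl ⟨3, h3⟩)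
    (Sum.inl ⟨4, h4⟩) (fin_seven_nodup hm5) (key _) (key _) hGPl hsq h2

/-- The subfield group in standard position is maximal in `Sp_2m`. -/
theorem sp_subfield_max_aux (hm : 7 ≤ m) (F₀ : Subfield F) (r : ℕ) (hr : r.Prime)
    (hcard : Fintype.card F = Nat.card F₀ ^ r) :
    Cfsg.Geo.IsMaximalIn (Cfsg.spGL m F) (H1 (Fin m ⊕ Fin m) F₀ ⊓ Cfsg.spGL m F) := by
  have hf := sympForm_symp (F := F) m
  have hb := hf.bilinear
  refine ⟨lt_of_le_of_ne inf_le_right ?_, fun M hHM hMK => ?_⟩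
  · intro heq
    have hex : ∃ c : F, c ∉ F₀ := by
      by_contra hcon
      push Not at hcon
      have h1 : Nat.card F₀ = Fintype.card F := by
        rw [← Nat.card_eq_fintype_card]
        exact Nat.card_congr (Equiv.subtypeUnivEquiv hcon)
      have h4 : 1 < Nat.card F₀ := by rw [h1]; exact Fintype.one_lt_card
      rw [← h1] at hcard
      have h5 : Nat.card F₀ ^ 1 = Nat.card F₀ ^ r := by rw [pow_one]; exact hcard
      have h6 := Nat.pow_right_injective h4 h5
      exact hr.one_lt.ne h6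
    obtain ⟨c, hc⟩ := hex
    have h0m : 0 < m := by omega
    obtain ⟨o, ho⟩ : ∃ o : Fin m ⊕ Fin m, o = Sum.inl ⟨0, h0m⟩ := ⟨_, rfl⟩
    have hdot := symp_dot0 hf (Pi.single o 1 : Fin m ⊕ Fin m → F) c
    obtain ⟨t, ht_def⟩ : ∃ t : GL (Fin m ⊕ Fin m) F,
        t = tvG (Pi.single o 1 : Fin m ⊕ Fin m → F) (c • rho sf (Pi.single o 1)) hdot := ⟨_, rfl⟩
    have htx : ∀ x : Fin m ⊕ Fin m → F, (t : Matrix (Fin m ⊕ Fin m) (Fin m ⊕ Fin m) F) *ᵥ x =
        x + (c * sf x (Pi.single o 1)) • Pi.single o 1 := by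
      intro x
      rw [ht_def]
      exact stv_mulVec hf _ c x
    have hmem : t ∈ Cfsg.spGL m F := by
      rw [mem_spGL_iff, ht_def]
      exact fun x y => stv_pres hf _ c x y
    have ht : t ∈ H1 (Fin m ⊕ Fin m) F₀ ⊓ Cfsg.spGL m F := by rw [heq]; exact hmem
    obtain ⟨c', hc'0, A, hA, htA⟩ := exists_of_mem_H1 F₀ _ ht.1
    have e00 := congrFun (congrArg (fun B : Matrix (Fin m ⊕ Fin m) (Fin m ⊕ Fin m) F =>
      B *ᵥ Pi.single o 1) htA) o
    have e01 := congrFun (congrArg (fun B : Matrix (Fin m ⊕ Fin m) (Fin m ⊕ Fin m) F =>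
      B *ᵥ Pi.single (sbar o) 1) htA) o
    simp only [htx, Matrix.mulVec_single_one, Matrix.col_apply, Matrix.smul_apply,
      Pi.add_apply, hf.alternating, mul_zero, zero_smul, add_zero, Pi.zero_apply,
      Pi.single_eq_same, smul_eq_mul] at e00
    simp only [htx, Matrix.mulVec_single_one, Matrix.col_apply, Matrix.smul_apply,
      Pi.add_apply, Pi.smul_apply, Pi.single_eq_same, smul_eq_mul, sympForm_single,
      Pi.single_eq_of_ne (sbar_ne o).symm, zero_add, mul_one] at e01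
    have hτ : stau F o = 1 := by rw [ho]; rfl
    rw [hτ, mul_one] at e01
    have hc'mem : c' ∈ F₀ := by
      have h7 : c' = (A o o)⁻¹ := eq_inv_of_mul_eq_one_left e00.symm
      rw [h7]; exact F₀.inv_mem (hA o o)
    apply hc
    rw [e01]
    exact F₀.mul_mem hc'mem (hA o (sbar o))
  · have D := subfData_of hHM hMK
    rcases inK_dichotomy D (by omega) r hr hcard with hK | hall
    · left
      have hGPl : ∀ g ∈ M, ¬ GP F₀ g → g ∈ H1 (Fin m ⊕ Fin m) F₀ :=
        fun g hg h => sp_mem_H1_of_not_GP D (by omega) hK g hg h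
      have hle : M ≤ H1 (Fin m ⊕ Fin m) F₀ := by
        by_cases h2 : (2 : F) = 0
        · exact sp_le_H1_two hm D hGPl (mem_of_sq_mem F₀ r hcard (Or.inl h2)) h2
        · rcases hr.eq_two_or_odd' with hr2 | hrodd
          · intro g hg
            by_contra hgH
            have hGP : GP F₀ g := by
              by_contra h
              exact hgH (hGPl g hg h)
            have h0m : 0 < m := by omega
            have h5 := card_le_of_GP F₀ r hcard g hGP (Sum.inl ⟨0, h0m⟩)
            rw [Fintype.card_sum, Fintype.card_fin] at h5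
            omega
          · exact sp_le_H1_odd hm D hGPl (mem_of_sq_mem F₀ r hcard (Or.inr hrodd)) h2
      exact le_antisymm (fun g hg => ⟨hle hg, hMK hg⟩) hHM
    · right
      exact le_antisymm hMK (spGL_le_of_InS m M (inS_all D (by omega) hall))

end SpMax

end Cfsg.Agent.Lib.Helper50
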