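import Mathlib
import Cfsg.Prelude.Def_GeometricClasses
import Cfsg.Agent.Lib.Helper18.Darboux
import Cfsg.Agent.Lib.Helper97.SpGen
import Cfsg.Agent.Lib.Helper97.SpOver2
import Cfsg.Agent.Lib.Helper50.SpMax

/-!
# Subfield subgroups of `Sp_2m` are maximal: general rational structures

Helper library (helper50).  A rational structure `P` on which `ζ f` is `F₀`-valued has a Darboux
basis over `F₀`; changing `P` by the corresponding rational matrix gives a similitude of the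
standard form, which normalises the symplectic group and conjugates the standard subfield group
to the subfield group of `P`.
-/

set_option autoImplicit false

namespace Cfsg.Agent.Lib.Helper50

open Matrix Cfsg.Agent.Lib.Helper97

section SpNorm

variable {F : Type*} [Field F]

/-- A rational change of basis after which `ζ f` becomes the standard form. -/
theorem exists_sp_normal (m : ℕ) (F₀ : Subfield F) (P : GL (Fin m ⊕ Fin m) F) (ζ : F)
    (hζ : ζ ≠ 0) (hP : Cfsg.Geo.IsFormRationalStructure (Cfsg.sympForm m F) F₀ ζ P) :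
    ∃ G0 : GL (Fin m ⊕ Fin m) F, G0 ∈ H1 (Fin m ⊕ Fin m) F₀ ∧
      ∀ u v : Fin m ⊕ Fin m → F,
        ζ * Cfsg.sympForm m F
          (((P * G0 : GL (Fin m ⊕ Fin m) F) : Matrix (Fin m ⊕ Fin m) (Fin m ⊕ Fin m) F) *ᵥ u)
          (((P * G0 : GL (Fin m ⊕ Fin m) F) : Matrix (Fin m ⊕ Fin m) (Fin m ⊕ Fin m) F) *ᵥ v) =
        Cfsg.sympForm m F u v := by
  classical
  have hf := sympForm_symp (F := F) m
  obtain ⟨N, hNdef⟩ : ∃ N : Matrix (Fin m ⊕ Fin m) (Fin m ⊕ Fin m) F,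
      N = ζ • ((P : Matrix (Fin m ⊕ Fin m) (Fin m ⊕ Fin m) F)ᵀ * Matrix.J (Fin m) F *
        (P : Matrix (Fin m ⊕ Fin m) (Fin m ⊕ Fin m) F)) := ⟨_, rfl⟩
  have hN : ∀ u v : Fin m ⊕ Fin m → F,
      ζ * Cfsg.sympForm m F ((P : Matrix (Fin m ⊕ Fin m) (Fin m ⊕ Fin m) F) *ᵥ u)
        ((P : Matrix (Fin m ⊕ Fin m) (Fin m ⊕ Fin m) F) *ᵥ v) = u ⬝ᵥ (N *ᵥ v) := by
    intro u v
    rw [hNdef, Matrix.smul_mulVec, dotProduct_smul, smul_eq_mul, ← Matrix.mulVec_mulVec,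
      ← Matrix.mulVec_mulVec, Matrix.dotProduct_mulVec u, Matrix.vecMul_transpose]
    rfl
  have hNrat : ∀ i j, N i j ∈ F₀ := by
    intro i j
    have h := hP (Pi.single i 1) (Pi.single j 1) (ratV_single F₀ i F₀.one_mem)
      (ratV_single F₀ j F₀.one_mem)
    rw [hN, Matrix.mulVec_single_one, single_dotProduct, one_mul, Matrix.col_apply] at h
    exact h
  obtain ⟨N₀, hN₀⟩ : ∃ N₀ : Matrix (Fin m ⊕ Fin m) (Fin m ⊕ Fin m) F₀,
      ∀ i j, (N₀ i j : F) = N i j := ⟨fun i j => ⟨N i j, hNrat i j⟩, fun _ _ => rfl⟩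
  have hcoe : ∀ x y : Fin m ⊕ Fin m → F₀,
      ((x ⬝ᵥ (N₀ *ᵥ y) : F₀) : F) = (fun i => (x i : F)) ⬝ᵥ (N *ᵥ fun i => (y i : F)) := by
    intro x y
    simp only [dotProduct, Matrix.mulVec]
    push_cast
    simp only [hN₀]
  have hB₀ : ∀ x y : Fin m ⊕ Fin m → F₀, Matrix.toBilin' N₀ x y = x ⬝ᵥ (N₀ *ᵥ y) :=
    fun x y => Matrix.toBilin'_apply' N₀ x y
  have hAlt : (Matrix.toBilin' N₀).IsAlt := by
    intro x
    rw [hB₀]
    apply Subtype.val_injective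
    rw [hcoe, ← hN, hf.alternating, mul_zero]
    rfl
  have hnd : ∀ u ∈ (⊤ : Submodule F₀ (Fin m ⊕ Fin m → F₀)),
      (∀ v ∈ (⊤ : Submodule F₀ (Fin m ⊕ Fin m → F₀)), Matrix.toBilin' N₀ u v = 0) → u = 0 := by
    intro u _ hu
    by_contra hu0
    have hcu0 : (fun i => (u i : F)) ≠ 0 := by
      intro h
      apply hu0
      funext i
      have h1 := congrFun h i
      exact Subtype.val_injective h1
    have hPu0 : (P : Matrix (Fin m ⊕ Fin m) (Fin m ⊕ Fin m) F) *ᵥ (fun i => (u i : F)) ≠ 0 := by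
      intro h
      apply hcu0
      have h1 := gl_inv_mulVec P (fun i => (u i : F))
      rw [h, Matrix.mulVec_zero] at h1
      exact h1.symm
    obtain ⟨w, hw⟩ := (hf.nondegenerate _ hPu0).2
    apply hw
    have hz : ∀ j, (fun i => (u i : F)) ⬝ᵥ (N *ᵥ Pi.single j 1) = 0 := by
      intro j
      have h1 := hu (Pi.single j 1) Submodule.mem_top
      rw [hB₀] at h1
      have h2 := congrArg (fun z : F₀ => (z : F)) h1
      simp only [hcoe] at h2
      have e : (fun i => ((Pi.single j (1 : F₀) : Fin m ⊕ Fin m → F₀) i : F)) =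
          Pi.single j 1 := by
        funext i
        by_cases hi : i = j
        · subst hi; simp
        · simp [Pi.single_eq_of_ne hi]
      rw [e] at h2
      exact h2
    have hvec : (fun i => (u i : F)) ᵥ* N = 0 := by
      funext j
      have h1 := hz j
      rw [Matrix.dotProduct_mulVec, dotProduct_single, mul_one] at h1
      exact h1
    have h3 := hN (fun i => (u i : F))
      (((P⁻¹ : GL (Fin m ⊕ Fin m) F) : Matrix (Fin m ⊕ Fin m) (Fin m ⊕ Fin m) F) *ᵥ w)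
    rw [gl_mulVec_inv, Matrix.dotProduct_mulVec, hvec, zero_dotProduct] at h3
    exact (mul_eq_zero.mp h3).resolve_left hζ
  obtain ⟨k, e, f, hD⟩ := Cfsg.Agent.Lib.Helper18.exists_darboux (Matrix.toBilin' N₀) hAlt _ ⊤
    rfl hnd
  have hk : k = m := by
    have h1 := hD.finrank_eq hAlt
    rw [finrank_top, Module.finrank_fintype_fun_eq_card, Fintype.card_sum, Fintype.card_fin] at h1
    omega
  subst hk
  obtain ⟨g₀, hg₀⟩ : ∃ g₀ : Matrix (Fin k ⊕ Fin k) (Fin k ⊕ Fin k) F₀,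
      ∀ c, g₀ *ᵥ Pi.single c 1 = Sum.elim e f c :=
    ⟨Matrix.of (fun i c => Sum.elim e f c i), fun c => by
      rw [Matrix.mulVec_single_one]; rfl⟩
  have hcol : ∀ c c', (g₀ᵀ * N₀ * g₀) c c' =
      Matrix.toBilin' N₀ (Sum.elim e f c) (Sum.elim e f c') := by
    intro c c'
    rw [← Matrix.toBilin'_single (g₀ᵀ * N₀ * g₀) c c', ← Matrix.toBilin'_comp,
      LinearMap.BilinForm.comp_apply, Matrix.toLin'_apply, Matrix.toLin'_apply, hg₀, hg₀]
  have hJ₀ : g₀ᵀ * N₀ * g₀ = Matrix.J (Fin k) F₀ := by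
    ext c c'
    rw [hcol]
    rcases c with i | i <;> rcases c' with j | j
    · rw [Sum.elim_inl, Sum.elim_inl, hD.ee]; simp [Matrix.J]
    · rw [Sum.elim_inl, Sum.elim_inr, hD.ef]
      simp [Matrix.J, Matrix.one_apply]
      split_ifs <;> simp
    · rw [Sum.elim_inr, Sum.elim_inl, hD.fe hAlt]; simp [Matrix.J, Matrix.one_apply]
    · rw [Sum.elim_inr, Sum.elim_inr, hD.ff]; simp [Matrix.J]
  have hNmap : N₀.map F₀.subtype = N := by
    ext i j
    exact hN₀ i j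
  have hJmap : (Matrix.J (Fin k) F₀).map F₀.subtype = Matrix.J (Fin k) F := by
    ext i j
    rcases i with i | i <;> rcases j with j | j <;>
      simp [Matrix.J, Matrix.one_apply, apply_ite]
  have hGJ : (g₀.map F₀.subtype)ᵀ * N * g₀.map F₀.subtype = Matrix.J (Fin k) F := by
    have h1 := congrArg (fun A : Matrix (Fin k ⊕ Fin k) (Fin k ⊕ Fin k) F₀ =>
      A.map F₀.subtype) hJ₀
    simp only [Matrix.map_mul, Matrix.transpose_map] at h1
    rw [hNmap, hJmap] at h1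
    exact h1
  have hdetJ : (Matrix.J (Fin k) F).det ≠ 0 := by
    intro h0
    have h1 : Matrix.J (Fin k) F * (-Matrix.J (Fin k) F) = 1 := by
      rw [Matrix.mul_neg, Matrix.J_squared, neg_neg]
    have h2 := congrArg Matrix.det h1
    rw [Matrix.det_mul, h0, zero_mul, Matrix.det_one] at h2
    exact zero_ne_one h2
  have hdetG : (g₀.map F₀.subtype).det ≠ 0 := by
    intro h0
    apply hdetJ
    rw [← hGJ, Matrix.det_mul, h0, mul_zero]
  refine ⟨Matrix.GeneralLinearGroup.mkOfDetNeZero (g₀.map F₀.subtype) hdetG,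
    mem_H1_of F₀ _ 1 one_ne_zero (g₀.map F₀.subtype) (fun i j => (g₀ i j).2)
      (by rw [one_smul]; rfl), ?_⟩
  intro u v
  rw [Units.val_mul, ← Matrix.mulVec_mulVec, ← Matrix.mulVec_mulVec, hN]
  show (g₀.map F₀.subtype *ᵥ u) ⬝ᵥ (N *ᵥ (g₀.map F₀.subtype *ᵥ v)) =
    u ⬝ᵥ (Matrix.J (Fin k) F *ᵥ v)
  rw [← hGJ, ← Matrix.mulVec_mulVec, ← Matrix.mulVec_mulVec, Matrix.dotProduct_mulVec u,
    Matrix.vecMul_transpose]

variable [Fintype F]

/-- Every subfield subgroup of `Sp_2m(F)` of type `Sp_2m(F₀)`, `F` of prime degree over `F₀`,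
`m ≥ 7`, is maximal. -/
theorem sp_subfield_isMaximalIn (m : ℕ) (hm : 7 ≤ m) (F₀ : Subfield F) (r : ℕ) (hr : r.Prime)
    (hcard : Fintype.card F = Nat.card F₀ ^ r) (P : GL (Fin m ⊕ Fin m) F) (ζ : F) (hζ : ζ ≠ 0)
    (hP : Cfsg.Geo.IsFormRationalStructure (Cfsg.sympForm m F) F₀ ζ P) :
    Cfsg.Geo.IsMaximalIn (Cfsg.spGL m F) (Cfsg.Geo.subfieldSubgroup F₀ P ⊓ Cfsg.spGL m F) := by
  obtain ⟨G0, hG0, hnorm⟩ := exists_sp_normal m F₀ P ζ hζ hP
  obtain ⟨P', hP'⟩ : ∃ P' : GL (Fin m ⊕ Fin m) F, P' = P * G0 := ⟨_, rfl⟩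
  rw [← hP'] at hnorm
  have hsim : ∀ u v : Fin m ⊕ Fin m → F,
      Cfsg.sympForm m F ((P' : Matrix (Fin m ⊕ Fin m) (Fin m ⊕ Fin m) F) *ᵥ u)
        ((P' : Matrix (Fin m ⊕ Fin m) (Fin m ⊕ Fin m) F) *ᵥ v) = ζ⁻¹ * Cfsg.sympForm m F u v := by
    intro u v
    rw [← hnorm u v, ← mul_assoc, inv_mul_cancel₀ hζ, one_mul]
  have hsim' : ∀ u v : Fin m ⊕ Fin m → F,
      Cfsg.sympForm m F (((P'⁻¹ : GL (Fin m ⊕ Fin m) F) :
          Matrix (Fin m ⊕ Fin m) (Fin m ⊕ Fin m) F) *ᵥ u)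
        (((P'⁻¹ : GL (Fin m ⊕ Fin m) F) : Matrix (Fin m ⊕ Fin m) (Fin m ⊕ Fin m) F) *ᵥ v) =
        ζ * Cfsg.sympForm m F u v := by
    intro u v
    have h1 := hnorm (((P'⁻¹ : GL (Fin m ⊕ Fin m) F) :
      Matrix (Fin m ⊕ Fin m) (Fin m ⊕ Fin m) F) *ᵥ u)
      (((P'⁻¹ : GL (Fin m ⊕ Fin m) F) : Matrix (Fin m ⊕ Fin m) (Fin m ⊕ Fin m) F) *ᵥ v)
    rw [gl_mulVec_inv, gl_mulVec_inv] at h1
    exact h1.symm
  have h := isMaximalIn_map (MulAut.conj P') (sp_subfield_max_aux hm F₀ r hr hcard)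
  rw [Subgroup.map_inf_eq _ _ _ (MulAut.conj P').injective] at h
  have e1 : (H1 (Fin m ⊕ Fin m) F₀).map (MulAut.conj P').toMonoidHom =
      Cfsg.Geo.subfieldSubgroup F₀ P := by
    show _ = (H1 (Fin m ⊕ Fin m) F₀).map (MulAut.conj P).toMonoidHom
    apply le_antisymm
    · rintro _ ⟨y, hy, rfl⟩
      refine ⟨G0 * y * G0⁻¹, (H1 (Fin m ⊕ Fin m) F₀).mul_mem
        ((H1 (Fin m ⊕ Fin m) F₀).mul_mem hG0 hy) ((H1 (Fin m ⊕ Fin m) F₀).inv_mem hG0), ?_⟩
      show P * (G0 * y * G0⁻¹) * P⁻¹ = P' * y * P'⁻¹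
      rw [hP']
      group
    · rintro _ ⟨y, hy, rfl⟩
      refine ⟨G0⁻¹ * y * G0, (H1 (Fin m ⊕ Fin m) F₀).mul_mem
        ((H1 (Fin m ⊕ Fin m) F₀).mul_mem ((H1 (Fin m ⊕ Fin m) F₀).inv_mem hG0) hy) hG0, ?_⟩
      show P' * (G0⁻¹ * y * G0) * P'⁻¹ = P * y * P⁻¹
      rw [hP']
      group
  have e2 : (Cfsg.spGL m F).map (MulAut.conj P').toMonoidHom = Cfsg.spGL m F := by
    apply le_antisymm
    · rintro _ ⟨y, hy, rfl⟩
      have hy' := (mem_spGL_iff m y).mp hy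
      show P' * y * P'⁻¹ ∈ Cfsg.spGL m F
      rw [mem_spGL_iff]
      intro u v
      rw [Units.val_mul, Units.val_mul, ← Matrix.mulVec_mulVec, ← Matrix.mulVec_mulVec,
        ← Matrix.mulVec_mulVec, ← Matrix.mulVec_mulVec, hsim, hy', hsim', ← mul_assoc,
        inv_mul_cancel₀ hζ, one_mul]
    · intro x hx
      have hx' := (mem_spGL_iff m x).mp hx
      refine ⟨P'⁻¹ * x * P', ?_, ?_⟩
      · show P'⁻¹ * x * P' ∈ Cfsg.spGL m F
        rw [mem_spGL_iff]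
        intro u v
        rw [Units.val_mul, Units.val_mul, ← Matrix.mulVec_mulVec, ← Matrix.mulVec_mulVec,
          ← Matrix.mulVec_mulVec, ← Matrix.mulVec_mulVec, hsim', hx', hsim, ← mul_assoc,
          mul_inv_cancel₀ hζ, one_mul]
      · show P' * (P'⁻¹ * x * P') * P'⁻¹ = x
        group
  rw [e1, e2] at h
  exact h

end SpNorm

end Cfsg.Agent.Lib.Helper50
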